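import Mathlib
import Cfsg.Agent.S0751
import Cfsg.Agent.Lib.Helper94.HermDim

set_option autoImplicit false

namespace Cfsg.Agent.Lib.Helper94.U

open Module
open Cfsg.Agent.Lib.Helper94

variable {F V : Type*} [Field F] [AddCommGroup V] [Module F V]
variable {σ : F →+* F} {B : V →ₛₗ[σ] V →ₗ[F] F}

lemma HForm.isSymm (H : HForm σ B) : B.IsSymm := ⟨H.symm⟩

lemma HForm.nondegenerate (H : HForm σ B) : B.Nondegenerate := by
  refine ⟨H.nondeg, ?_⟩
  intro y hy
  exact H.nondeg y (fun x => H.eq_zero_comm.1 (hy x))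

/-- Witt's lemma for subspaces -/
theorem witt [Finite F] [FiniteDimensional F V] (H : HForm σ B) (X Y : Submodule F V) (φ : X ≃ₗ[F] Y)
    (hφ : ∀ x x' : X, B (φ x : V) (φ x' : V) = B (x : V) (x' : V)) :
    ∃ g : V ≃ₗ[F] V, UIsom B g ∧ ∀ x : X, g (x : V) = (φ x : V) :=
  Cfsg.Agent.S0751.result σ H.ne_id H.invol B H.isSymm H.nondegenerate X Y φ hφ

/-- Witt's lemma for families of vectors -/
theorem exists_isom_family [Finite F] [FiniteDimensional F V] (H : HForm σ B) {ι : Type*} [Fintype ι]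
    (v w : ι → V) (hv : LinearIndependent F v) (hw : LinearIndependent F w)
    (hG : ∀ i j, B (v i) (v j) = B (w i) (w j)) : ∃ g : V ≃ₗ[F] V, UIsom B g ∧ ∀ i, g (v i) = w i := by
  let bv := Basis.span hv
  let bw := Basis.span hw
  let φ := bv.equiv bw (Equiv.refl ι)
  have h1 : ∀ x : Submodule.span F (Set.range v), (x : V) = ∑ i, bv.repr x i • v i := by
    intro x
    conv_lhs => rw [← bv.sum_repr x]
    rw [Submodule.coe_sum]
    refine Finset.sum_congr rfl fun i _ => ?_
    rw [Submodule.coe_smul, Basis.span_apply]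
  have h2 : ∀ x : Submodule.span F (Set.range v), (φ x : V) = ∑ i, bv.repr x i • w i := by
    intro x
    conv_lhs => rw [← bv.sum_repr x]
    rw [map_sum, Submodule.coe_sum]
    refine Finset.sum_congr rfl fun i _ => ?_
    rw [map_smul, Basis.equiv_apply, Submodule.coe_smul, Equiv.refl_apply, Basis.span_apply]
  obtain ⟨g, hg, hgφ⟩ := witt H _ _ φ (by
    intro x x'
    rw [h1 x, h1 x', h2 x, h2 x']
    simp only [map_sum, LinearMap.sum_apply, map_smulₛₗ, LinearMap.smul_apply, hG])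
  refine ⟨g, hg, fun i => ?_⟩
  have := hgφ (bv i)
  rw [Basis.equiv_apply, Basis.span_apply, Equiv.refl_apply, Basis.span_apply] at this
  exact this

/-- quasi-reflections with prescribed determinant -/
lemma exists_ur_det [FiniteDimensional F V] (H : HForm σ B) (u : V) (hne : B u u ≠ 0) (d : F)
    (hd : d * σ d = 1) : ∃ k hk, LinearMap.det ((ur H u k hk : V ≃ₗ[F] V) : V →ₗ[F] V) = d := by
  refine ⟨(d - 1) / B u u, ?_, ?_⟩
  · rw [map_div₀, map_sub, map_one, H.norm_fixed]
    field_simp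
    linear_combination hd
  · rw [ur_det, div_mul_cancel₀ _ hne]; ring

lemma det_mul (g g' : V ≃ₗ[F] V) : LinearMap.det ((g * g' : V ≃ₗ[F] V) : V →ₗ[F] V) =
    LinearMap.det (g : V →ₗ[F] V) * LinearMap.det (g' : V →ₗ[F] V) := by
  rw [← map_mul]; rfl

/-- correcting the determinant of an isometry by a quasi-reflection with centre `u` -/
lemma exists_det_fix [FiniteDimensional F V] (H : HForm σ B) (u : V) (hne : B u u ≠ 0)
    (g : V ≃ₗ[F] V) (hg : UIsom B g) :
    ∃ r : V ≃ₗ[F] V, UIsom B r ∧ (∀ x, B u x = 0 → r x = x) ∧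
      LinearMap.det ((r * g : V ≃ₗ[F] V) : V →ₗ[F] V) = 1 := by
  have hN := norm_det_eq_one H g hg
  set d := LinearMap.det (g : V →ₗ[F] V) with hd
  have hd0 : d ≠ 0 := by
    intro h; rw [h] at hN; simp at hN
  obtain ⟨k, hk, hdet⟩ := exists_ur_det H u hne d⁻¹ (by
    rw [map_inv₀, ← mul_inv, hN, inv_one])
  refine ⟨ur H u k hk, ur_isom _ _ _ _, ?_, ?_⟩
  · intro x hx
    rw [ur_apply, hx, mul_zero, zero_smul, add_zero]
  · rw [det_mul, hdet, ← hd, inv_mul_cancel₀ hd0]

/-- Witt's lemma for families of vectors, with determinant one -/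
theorem exists_sisom_family [Finite F] [FiniteDimensional F V] (H : HForm σ B) {ι : Type*} [Fintype ι]
    (v w : ι → V) (hv : LinearIndependent F v) (hw : LinearIndependent F w)
    (hG : ∀ i j, B (v i) (v j) = B (w i) (w j)) (hcard : 2 * Fintype.card ι < finrank F V) :
    ∃ g : V ≃ₗ[F] V, UIsom B g ∧ LinearMap.det (g : V →ₗ[F] V) = 1 ∧ ∀ i, g (v i) = w i := by
  obtain ⟨g, hg, hgv⟩ := exists_isom_family H v w hv hw hG
  have hfr : finrank F (Submodule.span F (Set.range w)) ≤ Fintype.card ι := finrank_range_le_card w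
  obtain ⟨u, hu, hne⟩ := exists_nonisotropic_perp H (Submodule.span F (Set.range w)) (by omega)
  obtain ⟨r, hr, hrf, hdet⟩ := exists_det_fix H u hne g hg
  refine ⟨r * g, hr.mul hg, hdet, fun i => ?_⟩
  rw [LinearEquiv.mul_apply, hgv, hrf]
  exact H.eq_zero_comm.1 (hu _ (Submodule.subset_span ⟨i, rfl⟩))

end Cfsg.Agent.Lib.Helper94.U
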