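import Mathlib
import Cfsg.Prelude.Def_GeometricClasses
import Cfsg.Agent.Lib.Helper94.Transfer
import Cfsg.Agent.Lib.Helper94.SLGen
import Cfsg.Agent.Lib.Helper94.SympWrap
import Cfsg.Agent.Lib.Helper94.FormB

set_option autoImplicit false

namespace Cfsg.Agent.Lib.Helper94

open Module

section abstract

variable {F V : Type*} [Field F] [AddCommGroup V] [Module F V]

/-- shorthand for Mathlib's transvection `x ↦ x + φ x • a` -/
noncomputable abbrev tr (φ : Dual F V) (a : V) (h : φ a = 0) : V ≃ₗ[F] V :=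
  LinearEquiv.transvection h

lemma tr_apply (φ : Dual F V) (a : V) (h : φ a = 0) (x : V) : tr φ a h x = x + φ x • a :=
  LinearEquiv.transvection.apply h x

lemma tr_det (φ : Dual F V) (a : V) (h : φ a = 0) :
    LinearMap.det ((tr φ a h : V ≃ₗ[F] V) : V →ₗ[F] V) = 1 := by
  rw [← LinearEquiv.coe_det]
  unfold tr
  rw [LinearEquiv.transvection.det_eq_one]
  rfl

lemma conj_tr (g : V ≃ₗ[F] V) (ψ : Dual F V) (a : V) (h : ψ (g a) = 0) :
    g * tr (ψ ∘ₗ (g : V →ₗ[F] V)) a h * g⁻¹ = tr ψ (g a) h := by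
  ext x
  simp only [LinearEquiv.mul_apply, tr_apply, map_add, map_smul, LinearMap.comp_apply,
    LinearEquiv.coe_coe, apply_inv_self']

/-- centres all of whose transvections lie in `G` -/
def ctrSet (G : Subgroup (V ≃ₗ[F] V)) : Set V :=
  {a | ∀ (φ : Dual F V) (h : φ a = 0), tr φ a h ∈ G}

lemma ctrSet_map {G : Subgroup (V ≃ₗ[F] V)} {a : V} (ha : a ∈ ctrSet G) {g : V ≃ₗ[F] V} (hg : g ∈ G) :
    g a ∈ ctrSet G := by
  intro ψ hψ
  rw [← conj_tr g ψ a hψ]
  exact G.mul_mem (G.mul_mem hg (ha _ _)) (G.inv_mem hg)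

lemma ctrSet_smul {G : Subgroup (V ≃ₗ[F] V)} {a : V} (ha : a ∈ ctrSet G) (c : F) :
    c • a ∈ ctrSet G := by
  intro φ hφ
  by_cases hc : c = 0
  · subst hc
    have : tr φ ((0 : F) • a) hφ = 1 := by ext x; simp [tr_apply]
    rw [this]; exact G.one_mem
  · have h' : (c • φ) a = 0 := by
      rw [map_smul, smul_eq_mul] at hφ
      simp [(mul_eq_zero.1 hφ).resolve_left hc]
    have : tr φ (c • a) hφ = tr (c • φ) a h' := by
      ext x; rw [tr_apply, tr_apply]; simp [smul_smul, mul_comm]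
    rw [this]; exact ha _ _

lemma ctrSet_add {G : Subgroup (V ≃ₗ[F] V)} {a a' : V} (ha : a ∈ ctrSet G) (ha' : a' ∈ ctrSet G) :
    a + a' ∈ ctrSet G := by
  by_cases hs : a' ∈ Submodule.span F {a}
  · obtain ⟨c, rfl⟩ := Submodule.mem_span_singleton.1 hs
    have : a + c • a = (1 + c) • a := by rw [add_smul, one_smul]
    rw [this]; exact ctrSet_smul ha _
  · obtain ⟨ψ, hψ1, hψ2⟩ := Submodule.exists_le_ker_of_notMem hs
    have hψa : ψ a = 0 := hψ2 (Submodule.mem_span_singleton_self a)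
    have hψa' : ((ψ a')⁻¹ • ψ) a = 0 := by simp [hψa]
    have := ctrSet_map ha' (ha _ hψa')
    rw [tr_apply] at this
    simp only [LinearMap.smul_apply, smul_eq_mul, inv_mul_cancel₀ hψ1, one_smul] at this
    rwa [add_comm]

/-- the centres form a subspace -/
def ctrSub (G : Subgroup (V ≃ₗ[F] V)) : Submodule F V where
  carrier := ctrSet G
  add_mem' := fun ha hb => ctrSet_add ha hb
  zero_mem' := by
    intro φ hφ
    have : tr φ (0 : V) hφ = 1 := by ext x; simp [tr_apply]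
    rw [this]; exact G.one_mem
  smul_mem' := fun c _ ha => ctrSet_smul ha c

theorem core_SL_subspace (W : Submodule F V) (G : Subgroup (V ≃ₗ[F] V))
    (hP : ∀ g : V ≃ₗ[F] V, LinearMap.det (g : V →ₗ[F] V) = 1 → (∀ w ∈ W, g w ∈ W) → g ∈ G)
    (g0 : V ≃ₗ[F] V) (hg0 : g0 ∈ G) (hg0W : ¬ ∀ w ∈ W, g0 w ∈ W) :
    ∀ (φ : Dual F V) (a : V) (h : φ a = 0), tr φ a h ∈ G := by
  have h1 : ∀ a ∈ W, a ∈ ctrSub G := by
    intro a ha φ hφ
    refine hP _ (tr_det _ _ _) fun w hw => ?_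
    rw [tr_apply]; exact W.add_mem hw (W.smul_mem _ ha)
  have h2 : ∀ (φ : Dual F V) (b : V) (h : φ b = 0), W ≤ LinearMap.ker φ → tr φ b h ∈ G := by
    intro φ b h hW
    refine hP _ (tr_det _ _ _) fun w hw => ?_
    rw [tr_apply, LinearMap.mem_ker.1 (hW hw), zero_smul, add_zero]; exact hw
  push Not at hg0W
  obtain ⟨w, hw, hgw⟩ := hg0W
  have ha : g0 w ∈ ctrSub G := ctrSet_map (h1 w hw) hg0
  obtain ⟨φ, hφ1, hφ2⟩ := Submodule.exists_le_ker_of_notMem hgw
  have h3 : ∀ b, φ b = 0 → b ∈ ctrSub G := by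
    intro b hb
    have h4 : g0 w + φ (g0 w) • b ∈ ctrSub G := by
      have := ctrSet_map ha (h2 φ b hb hφ2)
      rwa [tr_apply] at this
    have h5 := (ctrSub G).sub_mem h4 ha
    rw [add_sub_cancel_left] at h5
    exact ((ctrSub G).smul_mem_iff hφ1).1 h5
  intro ψ x hx
  have h6 : x ∈ ctrSub G := by
    have h7 : x = (x - (φ x / φ (g0 w)) • g0 w) + (φ x / φ (g0 w)) • g0 w := by abel
    rw [h7]
    refine (ctrSub G).add_mem (h3 _ ?_) ((ctrSub G).smul_mem _ ha)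
    rw [map_sub, map_smul, smul_eq_mul, div_mul_cancel₀ _ hφ1, sub_self]
  exact h6 ψ hx

/-- for `R < U < ⊤` there is a transvection fixing `R` pointwise and not stabilising `U`. -/
lemma exists_tr_not_stab (R U : Submodule F V) (hRU : R < U) (hU : U ≠ ⊤) :
    ∃ (φ : Dual F V) (a : V) (h : φ a = 0), R ≤ LinearMap.ker φ ∧ ∃ u ∈ U, tr φ a h u ∉ U := by
  obtain ⟨u, huU, huR⟩ := SetLike.exists_of_lt hRU
  obtain ⟨a, haU⟩ : ∃ a, a ∉ U := by
    by_contra hcon
    push Not at hcon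
    exact hU (eq_top_iff.2 fun x _ => hcon x)
  have hu : u ∉ R ⊔ Submodule.span F {a} := by
    intro hmem
    obtain ⟨r, hr, z, hz, hrz⟩ := Submodule.mem_sup.1 hmem
    obtain ⟨c, rfl⟩ := Submodule.mem_span_singleton.1 hz
    have h1 : c • a ∈ U := by
      have : c • a = u - r := by rw [← hrz]; abel
      rw [this]; exact U.sub_mem huU (hRU.le hr)
    by_cases hc : c = 0
    · subst hc
      rw [zero_smul, add_zero] at hrz
      exact huR (hrz ▸ hr)
    · exact haU ((U.smul_mem_iff hc).1 h1)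
  obtain ⟨φ, hφ1, hφ2⟩ := Submodule.exists_le_ker_of_notMem hu
  have hφa : φ a = 0 := hφ2 (Submodule.mem_sup_right (Submodule.mem_span_singleton_self a))
  refine ⟨φ, a, hφa, le_trans le_sup_left hφ2, u, huU, ?_⟩
  rw [tr_apply]
  intro hmem
  have h1 := U.sub_mem hmem huU
  rw [add_sub_cancel_left] at h1
  exact haU ((U.smul_mem_iff hφ1).1 h1)

end abstract

variable {ι : Type} [Fintype ι] [DecidableEq ι] {F : Type*} [Field F]

theorem sl_maximal_of_core [Nontrivial ι] (S : Subgroup (Matrix.GeneralLinearGroup ι F))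
    (stab : ((ι → F) ≃ₗ[F] (ι → F)) → Prop)
    (hS : ∀ g, g ∈ S ↔ stab (glEquiv _ F g))
    (hne : ∃ φ : (ι → F) ≃ₗ[F] (ι → F), LinearMap.det (φ : (ι → F) →ₗ[F] (ι → F)) = 1 ∧ ¬ stab φ)
    (hcore : ∀ G : Subgroup ((ι → F) ≃ₗ[F] (ι → F)),
      (∀ φ : (ι → F) ≃ₗ[F] (ι → F), LinearMap.det (φ : (ι → F) →ₗ[F] (ι → F)) = 1 → stab φ → φ ∈ G) →
      ∀ φ0 ∈ G, LinearMap.det (φ0 : (ι → F) →ₗ[F] (ι → F)) = 1 → ¬ stab φ0 →
      ∀ (f : Dual F (ι → F)) (v : ι → F) (h : f v = 0), LinearEquiv.transvection h ∈ G) :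
    Cfsg.Geo.IsMaximalIn (Cfsg.Geo.specialLinear ι F) (S ⊓ Cfsg.Geo.specialLinear ι F) := by
  refine isMaximalIn_of_core _ _ inf_le_right ?_ ?_
  · obtain ⟨φ, hφI, hφS⟩ := hne
    refine ⟨(glEquiv _ F).symm φ, ?_, ?_⟩
    · rw [symm_mem_specialLinear_iff]; exact hφI
    · intro h
      have := (hS _).1 h.1
      rw [MulEquiv.apply_symm_apply] at this
      exact hφS this
  · intro M hHM hMK g0 hg0 hg0H k hk
    have hdet : ∀ g, g ∈ Cfsg.Geo.specialLinear ι F →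
        LinearMap.det ((glEquiv _ F g : (ι → F) ≃ₗ[F] (ι → F)) : (ι → F) →ₗ[F] (ι → F)) = 1 := by
      intro g hg
      rw [glEquiv_det]; exact (mem_specialLinear_iff g).1 hg
    have key := hcore (M.map (glEquiv _ F).toMonoidHom) ?_ (glEquiv _ F g0) ⟨g0, hg0, rfl⟩
      (hdet g0 (hMK hg0)) ?_
    · obtain ⟨k', hk', hkk⟩ := mem_of_det_eq_one (M.map (glEquiv _ F).toMonoidHom) key k
        ((mem_specialLinear_iff k).1 hk)
      have : k' = k := (glEquiv _ F).injective hkk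
      exact this ▸ hk'
    · intro φ hφI hφS
      refine ⟨(glEquiv _ F).symm φ, hHM (Subgroup.mem_inf.2 ⟨?_, ?_⟩), ?_⟩
      · rw [hS, MulEquiv.apply_symm_apply]; exact hφS
      · rw [symm_mem_specialLinear_iff]; exact hφI
      · exact MulEquiv.apply_symm_apply _ _
    · intro h
      exact hg0H ⟨(hS _).2 h, hMK hg0⟩

lemma symm_mem_subspaceStabilizer_iff (φ : (ι → F) ≃ₗ[F] (ι → F)) (W : Submodule F (ι → F)) :
    (glEquiv ι F).symm φ ∈ Cfsg.Geo.subspaceStabilizer W ↔ ∀ w ∈ W, φ w ∈ W := by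
  rw [mem_subspaceStabilizer_iff, MulEquiv.apply_symm_apply]

end Cfsg.Agent.Lib.Helper94
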