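import Mathlib
import Cfsg.Agent.Lib.Helper94.HermWitt
import Cfsg.Agent.Lib.Helper94.SLMax

set_option autoImplicit false

namespace Cfsg.Agent.Lib.Helper94.U

open Module
open Cfsg.Agent.Lib.Helper94

variable {F V : Type*} [Field F] [AddCommGroup V] [Module F V]
variable {σ : F →+* F} {B : V →ₛₗ[σ] V →ₗ[F] F}

/-- similarities -/
def USimil (B : V →ₛₗ[σ] V →ₗ[F] F) (g : V ≃ₗ[F] V) : Prop :=
  ∃ c : F, c ≠ 0 ∧ ∀ u v, B (g u) (g v) = c * B u v

lemma finrank_span_singleton_le (x : V) : finrank F (Submodule.span F {x}) ≤ 1 := by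
  have h2 := finrank_span_le_card (R := F) ({x} : Set V)
  simpa using h2

/-- the isotropic vectors span the space -/
lemma mem_span_isotropic [Finite F] [FiniteDimensional F V] (H : HForm σ B) (hdim : 2 < finrank F V)
    (x : V) : x ∈ Submodule.span F {v : V | B v v = 0} := by
  have h1 := finrank_span_singleton_le (F := F) x
  obtain ⟨y, hy, hyn, -⟩ := exists_norm_perp H (Submodule.span F {x}) (by omega) (-(B x x))
    (by rw [map_neg, H.norm_fixed])
  rw [mem_perp_span_singleton] at hy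
  obtain ⟨l, hl1, hl⟩ := H.exists_norm_one
  have e1 : x + y ∈ Submodule.span F {v : V | B v v = 0} := by
    apply Submodule.subset_span
    change B (x + y) (x + y) = 0
    rw [H.norm_add, hyn, hy]; simp
  have e2 : x + l • y ∈ Submodule.span F {v : V | B v v = 0} := by
    apply Submodule.subset_span
    change B (x + l • y) (x + l • y) = 0
    rw [H.norm_add, H.norm_smul, hl, hyn, map_smul, hy]; simp
  have e3 : (1 - l) • y ∈ Submodule.span F {v : V | B v v = 0} := by
    have : (1 - l) • y = (x + y) - (x + l • y) := by rw [sub_smul, one_smul]; abel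
    rw [this]; exact Submodule.sub_mem _ e1 e2
  have e4 : y ∈ Submodule.span F {v : V | B v v = 0} := by
    have h0 : (1 - l) ≠ 0 := sub_ne_zero.2 (Ne.symm hl1)
    have := Submodule.smul_mem _ (1 - l)⁻¹ e3
    rwa [smul_smul, inv_mul_cancel₀ h0, one_smul] at this
  have : x = (x + y) - y := by abel
  rw [this]; exact Submodule.sub_mem _ e1 e4

lemma simil_of_preserves_ortho [Finite F] [FiniteDimensional F V] (H : HForm σ B)
    (hdim : 2 < finrank F V) (g : V ≃ₗ[F] V)
    (h : ∀ v w, B v v = 0 → B v w = 0 → B (g v) (g w) = 0) : USimil B g := by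
  have key : ∀ u, u ≠ 0 → B u u = 0 → ∃ c, ∀ y, B (g u) (g y) = c * B u y := by
    intro u hu hu0
    obtain ⟨x, hx⟩ := H.exists_ne hu
    refine ⟨B (g u) (g x) / B u x, fun y => ?_⟩
    have h1 : B u (y - (B u y / B u x) • x) = 0 := by
      rw [map_sub, map_smul, smul_eq_mul, div_mul_cancel₀ _ hx, sub_self]
    have h2 := h _ _ hu0 h1
    rw [map_sub, map_smul, map_sub, map_smul, smul_eq_mul, sub_eq_zero] at h2
    rw [h2]; field_simp
  choose c hc using key
  have hcc : ∀ v w (hv : v ≠ 0) (hw : w ≠ 0) (hv0 : B v v = 0) (hw0 : B w w = 0), B v w ≠ 0 →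
      c v hv hv0 = c w hw hw0 := by
    intro v w hv hw hv0 hw0 hvw
    obtain ⟨ε, hε0, hε⟩ := H.exists_skew
    set a := ε / B v w with ha
    have ha0 : a ≠ 0 := div_ne_zero hε0 hvw
    have hwv : B w v ≠ 0 := fun h => hvw (H.eq_zero_comm.1 h)
    have hu0 : B (v + a • w) (v + a • w) = 0 := by
      rw [H.norm_add, H.norm_smul, hv0, hw0, map_smul, smul_eq_mul, ha, div_mul_cancel₀ _ hvw, hε]
      simp
    have hu : v + a • w ≠ 0 := by
      intro h0
      have : B (v + a • w) w = 0 := by rw [h0]; simp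
      rw [map_add, LinearMap.add_apply, map_smulₛₗ, LinearMap.smul_apply, hw0, smul_zero, add_zero] at this
      exact hvw this
    have e1 := hc _ hu hu0 w
    rw [map_add, map_add, map_add, LinearMap.add_apply, LinearMap.add_apply, map_smul, map_smulₛₗ,
      map_smulₛₗ, LinearMap.smul_apply, LinearMap.smul_apply, hc v hv hv0, hc w hw hw0, hw0] at e1
    simp only [mul_zero, smul_zero, add_zero] at e1
    have e1' := mul_right_cancel₀ hvw e1
    have e2 := hc _ hu hu0 v
    rw [map_add, map_add, map_add, LinearMap.add_apply, LinearMap.add_apply, map_smul, map_smulₛₗ,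
      map_smulₛₗ, LinearMap.smul_apply, LinearMap.smul_apply, hc v hv hv0, hc w hw hw0, hv0] at e2
    simp only [mul_zero, zero_add, smul_eq_mul] at e2
    have e2' : c w hw hw0 * (σ a * B w v) = c _ hu hu0 * (σ a * B w v) := by linear_combination e2
    have e2'' := mul_right_cancel₀ (mul_ne_zero (H.sigma_ne_zero ha0) hwv) e2'
    rw [e1', e2'']
  have hcc' : ∀ v w (hv : v ≠ 0) (hw : w ≠ 0) (hv0 : B v v = 0) (hw0 : B w w = 0),
      c v hv hv0 = c w hw hw0 := by
    intro v w hv hw hv0 hw0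
    by_cases hvw : B v w = 0
    · obtain ⟨y, -, hy1, hy2⟩ := exists_both_ne_zero ⊤ (B v) (B w)
        (by obtain ⟨x, hx⟩ := H.exists_ne hv; exact ⟨x, trivial, hx⟩)
        (by obtain ⟨x, hx⟩ := H.exists_ne hw; exact ⟨x, trivial, hx⟩)
      have hyv : B y v ≠ 0 := fun h => hy1 (H.eq_zero_comm.1 h)
      obtain ⟨e, he⟩ := H.exists_trace (-(B y y)) (by rw [map_neg, H.norm_fixed])
      have hz0 : B (y + (e / B y v) • v) (y + (e / B y v) • v) = 0 := by
        rw [H.norm_add, H.norm_smul, hv0, map_smul, smul_eq_mul, div_mul_cancel₀ _ hyv, he]; ring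
      have hvz : B v (y + (e / B y v) • v) ≠ 0 := by
        rw [map_add, map_smul, hv0, smul_zero, add_zero]; exact hy1
      have hwz : B w (y + (e / B y v) • v) ≠ 0 := by
        rw [map_add, map_smul, H.eq_zero_comm.1 hvw, smul_zero, add_zero]; exact hy2
      have hz : y + (e / B y v) • v ≠ 0 := by
        intro h0; rw [h0] at hvz; simp at hvz
      rw [hcc v _ hv hz hv0 hz0 hvz, hcc w _ hw hz hw0 hz0 hwz]
    · exact hcc v w hv hw hv0 hw0 hvw
  obtain ⟨v0, hv0, hv00⟩ : ∃ v0 : V, v0 ≠ 0 ∧ B v0 v0 = 0 := by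
    by_contra hcon
    push Not at hcon
    have : Nontrivial V := Module.nontrivial_of_finrank_pos (R := F) (by omega)
    obtain ⟨x, hx⟩ := exists_ne (0 : V)
    have hle : Submodule.span F {v : V | B v v = 0} ≤ ⊥ := by
      rw [Submodule.span_le]
      intro v hv
      by_contra hv'
      exact hcon v (by simpa using hv') hv
    exact hx ((Submodule.mem_bot F).1 (hle (mem_span_isotropic H hdim x)))
  have hall : ∀ x y, B (g x) (g y) = c v0 hv0 hv00 * B x y := by
    intro x y
    have hx := mem_span_isotropic H hdim x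
    induction hx using Submodule.span_induction with
    | mem v hv =>
      by_cases hv' : v = 0
      · subst hv'; simp
      · rw [hc v hv' hv, hcc' v v0 hv' hv0 hv hv00]
    | zero => simp
    | add x1 x2 _ _ h1 h2 =>
      rw [map_add, map_add, map_add, LinearMap.add_apply, LinearMap.add_apply, h1, h2]; ring
    | smul a x1 _ h1 =>
      rw [map_smul, map_smulₛₗ, map_smulₛₗ, LinearMap.smul_apply, LinearMap.smul_apply, h1, smul_eq_mul,
        smul_eq_mul]; ring
  refine ⟨c v0 hv0 hv00, ?_, hall⟩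
  intro hc0
  have hgu : g v0 ≠ 0 := by simpa using hv0
  obtain ⟨z, hz⟩ := H.exists_ne hgu
  apply hz
  rw [← apply_inv_self' g z, hall, hc0, zero_mul]

/-- vectors of a given norm in `b^⊥` generate `b^⊥` additively -/
lemma addGen [Finite F] [FiniteDimensional F V] (H : HForm σ B) (hdim : 6 < finrank F V) (b : V)
    (α : F) (hα : σ α = α) (A : AddSubgroup V)
    (hA : ∀ z, B b z = 0 → B z z = α → z ∉ Submodule.span F {b} → z ∈ A) :
    ∀ x, B b x = 0 → x ∈ A := by
  intro x hx
  obtain ⟨l, hl⟩ := H.exists_trace (-1) (by simp)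
  have hfr : finrank F ↥(Submodule.span F {x} ⊔ Submodule.span F {b}) ≤ 2 := by
    have h1 := finrank_sup_span_singleton_le (Submodule.span F {x}) b
    have h2 := finrank_span_singleton_le (F := F) x
    omega
  obtain ⟨z', hz', hzn, p, hp, hzp⟩ := exists_norm_perp_witness H
    (Submodule.span F {x} ⊔ Submodule.span F {b}) (by omega) (α - l * σ l * B x x)
    (by rw [map_sub, map_mul, map_mul, H.invol, H.norm_fixed, hα]; ring)
  rw [mem_perp_sup, mem_perp_span_singleton, mem_perp_span_singleton] at hz' hp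
  have key : ∀ m : F, m * σ m = l * σ l → m • x + z' ∈ A := by
    intro m hm
    apply hA
    · rw [map_add, map_smul, hx, hz'.2]; simp
    · rw [H.norm_add, H.norm_smul, hzn, map_smulₛₗ, LinearMap.smul_apply, hz'.1, hm]; simp
    · intro hmem
      obtain ⟨c, hc⟩ := Submodule.mem_span_singleton.1 hmem
      have h1 : B (m • x + z') p = B z' p := by
        rw [map_add, LinearMap.add_apply, map_smulₛₗ, LinearMap.smul_apply, hp.1]; simp
      rw [← hc, map_smulₛₗ, LinearMap.smul_apply, hp.2, smul_zero] at h1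
      exact hzp h1.symm
  have h1 := key l rfl
  have h2 := key (l + 1) (by rw [map_add, map_one]; linear_combination hl)
  have : x = ((l + 1) • x + z') - (l • x + z') := by rw [add_smul, one_smul]; abel
  rw [this]; exact A.sub_mem h2 h1

lemma conj_tr_isom {g : V ≃ₗ[F] V} (hg : UIsom B g) (a b : V) (h : B b a = 0) :
    g * tr (B b) a h * g⁻¹ = tr (B (g b)) (g a) (by rw [hg]; exact h) := by
  ext x
  simp only [LinearEquiv.mul_apply, tr_apply, map_add, map_smul, apply_inv_self', hg.inv_right]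

/-- centres `a` for a fixed `b` -/
def ctrA (B : V →ₛₗ[σ] V →ₗ[F] F) (G : Subgroup (V ≃ₗ[F] V)) (b : V) : AddSubgroup V where
  carrier := {a | ∃ h : B b a = 0, tr (B b) a h ∈ G}
  add_mem' := by
    rintro a a' ⟨h, hG⟩ ⟨h', hG'⟩
    refine ⟨by rw [map_add, h, h', add_zero], ?_⟩
    have : tr (B b) (a + a') (by rw [map_add, h, h', add_zero]) = tr (B b) a h * tr (B b) a' h' := by
      ext x
      simp only [LinearEquiv.mul_apply, tr_apply, map_add, map_smul, h', smul_eq_mul, mul_zero, zero_smul, add_zero, smul_add]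
      abel
    rw [this]; exact G.mul_mem hG hG'
  zero_mem' := by
    refine ⟨by simp, ?_⟩
    have : tr (B b) 0 (by simp) = 1 := by ext x; simp [tr_apply]
    rw [this]; exact G.one_mem
  neg_mem' := by
    rintro a ⟨h, hG⟩
    refine ⟨by rw [map_neg, h, neg_zero], ?_⟩
    have : tr (B b) (-a) (by rw [map_neg, h, neg_zero]) = (tr (B b) a h)⁻¹ := by
      rw [eq_inv_iff_mul_eq_one]
      ext x
      simp only [LinearEquiv.mul_apply, tr_apply, map_add, map_smul, h, smul_eq_mul, mul_zero, zero_smul,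
        add_zero, smul_neg, LinearEquiv.coe_one, id_eq]
      abel
    rw [this]; exact G.inv_mem hG

/-- axes `b` for a fixed centre `a` -/
def axB (B : V →ₛₗ[σ] V →ₗ[F] F) (G : Subgroup (V ≃ₗ[F] V)) (a : V) : AddSubgroup V where
  carrier := {b | ∃ h : B b a = 0, tr (B b) a h ∈ G}
  add_mem' := by
    rintro b b' ⟨h, hG⟩ ⟨h', hG'⟩
    refine ⟨by rw [map_add, LinearMap.add_apply, h, h', add_zero], ?_⟩
    have : tr (B (b + b')) a (by rw [map_add, LinearMap.add_apply, h, h', add_zero]) =
        tr (B b) a h * tr (B b') a h' := by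
      ext x
      simp only [LinearEquiv.mul_apply, tr_apply, map_add, map_smul, h, smul_eq_mul, mul_zero, zero_smul,
        add_zero, LinearMap.add_apply, add_smul]
      abel
    rw [this]; exact G.mul_mem hG hG'
  zero_mem' := by
    refine ⟨by simp, ?_⟩
    have : tr (B 0) a (by simp) = 1 := by ext x; simp [tr_apply]
    rw [this]; exact G.one_mem
  neg_mem' := by
    rintro b ⟨h, hG⟩
    refine ⟨by rw [map_neg, LinearMap.neg_apply, h, neg_zero], ?_⟩
    have : tr (B (-b)) a (by rw [map_neg, LinearMap.neg_apply, h, neg_zero]) = (tr (B b) a h)⁻¹ := by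
      rw [eq_inv_iff_mul_eq_one]
      ext x
      simp only [LinearEquiv.mul_apply, tr_apply, map_add, map_smul, h, smul_eq_mul, mul_zero, zero_smul,
        add_zero, map_neg, LinearMap.neg_apply, neg_smul, LinearEquiv.coe_one, id_eq]
      abel
    rw [this]; exact G.inv_mem hG

theorem core_SL_tr [Finite F] [FiniteDimensional F V] (H : HForm σ B) (hdim : 6 < finrank F V)
    (G : Subgroup (V ≃ₗ[F] V))
    (hG : ∀ g : V ≃ₗ[F] V, UIsom B g → LinearMap.det (g : V →ₗ[F] V) = 1 → g ∈ G)
    (g0 : V ≃ₗ[F] V) (hg0 : g0 ∈ G) (hg0S : ¬ USimil B g0) :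
    ∀ a b (h : B b a = 0), tr (B b) a h ∈ G := by
  obtain ⟨v, w, hv0, hvw, hne⟩ : ∃ v w, B v v = 0 ∧ B v w = 0 ∧ B (g0 v) (g0 w) ≠ 0 := by
    by_contra hcon
    push Not at hcon
    exact hg0S (simil_of_preserves_ortho H (by omega) g0 hcon)
  obtain ⟨ε, hε0, hε⟩ := H.exists_skew
  obtain ⟨b0, hb0⟩ := exists_repr H ((B v) ∘ₗ ((g0⁻¹ : V ≃ₗ[F] V) : V →ₗ[F] V))
  have hb0' : ∀ x, B b0 x = B v (g0⁻¹ x) := fun x => (hb0 x).symm
  have hk : ε + σ ε + ε * σ ε * B v v = 0 := by rw [hv0, hε]; simp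
  have hab : B b0 (ε • g0 v) = 0 := by rw [hb0', map_smul, inv_apply_self', map_smul, hv0, smul_zero]
  have ht : g0 * ur H v ε hk * g0⁻¹ = tr (B b0) (ε • g0 v) hab := by
    ext x
    simp only [LinearEquiv.mul_apply, ur_apply, tr_apply, map_add, map_smul, apply_inv_self', hb0',
      smul_smul]
    rw [mul_comm]
  have htG : tr (B b0) (ε • g0 v) hab ∈ G := by
    rw [← ht]
    refine G.mul_mem (G.mul_mem hg0 (hG _ (ur_isom _ _ _ _) ?_)) (G.inv_mem hg0)
    rw [ur_det, hv0]; simp
  have hv : v ≠ 0 := by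
    rintro rfl; simp at hne
  have hb00 : b0 ≠ 0 := by
    intro h0
    obtain ⟨y, hy⟩ := H.exists_ne hv
    apply hy
    rw [← inv_apply_self' g0 y, ← hb0', h0]; simp
  have hli : LinearIndependent F ![b0, ε • g0 v] := by
    rw [LinearIndependent.pair_iff' hb00]
    intro c hc
    have h1 : B (c • b0) (g0 w) = 0 := by
      rw [map_smulₛₗ, LinearMap.smul_apply, hb0', inv_apply_self', hvw, smul_zero]
    rw [hc, map_smulₛₗ, LinearMap.smul_apply, smul_eq_mul] at h1
    exact (mul_ne_zero (H.sigma_ne_zero hε0) hne) h1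
  -- step B1
  have B1 : ∀ a b (h : B b a = 0), b ≠ 0 → a ∉ Submodule.span F {b} → B a a = B (ε • g0 v) (ε • g0 v) →
      B b b = B b0 b0 → tr (B b) a h ∈ G := by
    intro a b h hb ha hna hnb
    have hli' : LinearIndependent F ![b, a] := by
      rw [LinearIndependent.pair_iff' hb]
      intro c hc
      exact ha (Submodule.mem_span_singleton.2 ⟨c, hc⟩)
    obtain ⟨s, hs, hsdet, hsv⟩ := exists_sisom_family H ![b0, ε • g0 v] ![b, a] hli hli' (by
      intro i j
      fin_cases i <;> fin_cases j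
      · exact hnb.symm
      · simp [hab, h]
      · simp only [Fin.mk_one, Fin.zero_eta, Matrix.cons_val_one, Matrix.cons_val_zero]
        rw [H.eq_zero_comm.1 hab, H.eq_zero_comm.1 h]
      · exact hna.symm) (by simp; omega)
    have hsb : s b0 = b := hsv 0
    have hsa : s (ε • g0 v) = a := hsv 1
    have h3 : tr (B b) a h = s * tr (B b0) (ε • g0 v) hab * s⁻¹ := by
      rw [conj_tr_isom hs]
      congr 1 <;> simp [hsa, hsb]
    rw [h3]
    exact G.mul_mem (G.mul_mem (hG s hs hsdet) htG) (G.inv_mem (hG s hs hsdet))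
  -- step B2
  have B2 : ∀ b, b ≠ 0 → B b b = B b0 b0 → ∀ a (h : B b a = 0), tr (B b) a h ∈ G := by
    intro b hb hnb a h
    obtain ⟨_, h'⟩ := addGen H hdim b (B (ε • g0 v) (ε • g0 v)) (H.norm_fixed _) (ctrA B G b)
      (fun z hz hzn hzs => ⟨hz, B1 z b hz hb hzs hzn hnb⟩) a h
    exact h'
  -- step B3
  intro a b h
  obtain ⟨_, h'⟩ := addGen H hdim a (B b0 b0) (H.norm_fixed _) (axB B G a)
    (fun z hz hzn hzs => ⟨H.eq_zero_comm.1 hz, B2 z (by
      rintro rfl; exact hzs (Submodule.zero_mem _)) hzn a (H.eq_zero_comm.1 hz)⟩) b (H.eq_zero_comm.1 h)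
  exact h'

theorem core_SL_transvection [Finite F] [FiniteDimensional F V] (H : HForm σ B)
    (hdim : 6 < finrank F V) (G : Subgroup (V ≃ₗ[F] V))
    (hG : ∀ g : V ≃ₗ[F] V, UIsom B g → LinearMap.det (g : V →ₗ[F] V) = 1 → g ∈ G)
    (g0 : V ≃ₗ[F] V) (hg0 : g0 ∈ G) (hg0S : ¬ USimil B g0) (f : Dual F V) (v : V) (h : f v = 0) :
    LinearEquiv.transvection h ∈ G := by
  obtain ⟨b, hb⟩ := exists_repr H f
  have hvb : B b v = 0 := by rw [← hb, h]
  have : LinearEquiv.transvection h = tr (B b) v hvb := by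
    ext x
    rw [tr_apply, LinearEquiv.transvection.apply, hb]
  rw [this]
  exact core_SL_tr H hdim G hG g0 hg0 hg0S v b hvb

/-- a non-unitary transvection is not a similarity -/
lemma tr_not_simil [Finite F] [FiniteDimensional F V] (H : HForm σ B)
    (a b : V) (hab : B b a = 0) (hb0 : b ≠ 0) (ha : a ∉ Submodule.span F {b}) :
    ¬ USimil B (tr (B b) a hab) := by
  rintro ⟨c, -, hc⟩
  obtain ⟨x, hx, hax⟩ := exists_perp_ne H _ ha
  rw [mem_perp_span_singleton] at hx
  have hxa : B x a ≠ 0 := fun h => hax (H.eq_zero_comm.1 h)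
  have hc1 : c = 1 := by
    have := hc x a
    simp only [tr_apply, hab, hx, zero_smul, add_zero] at this
    exact (mul_right_cancel₀ hxa (by rw [one_mul]; exact this.symm))
  obtain ⟨y, hy⟩ := H.exists_ne hb0
  have := hc x y
  simp only [tr_apply, hx, zero_smul, add_zero, map_add, map_smul, smul_eq_mul, hc1, one_mul] at this
  have h2 : B b y * B x a = 0 := by linear_combination this
  rcases mul_eq_zero.1 h2 with h3 | h3
  · exact hy h3
  · exact hxa h3

lemma exists_ortho_indep [Finite F] [FiniteDimensional F V] (H : HForm σ B)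
    (hdim : 4 < finrank F V) : ∃ a b : V, B b a = 0 ∧ b ≠ 0 ∧ a ∉ Submodule.span F {b} := by
  have : Nontrivial V := Module.nontrivial_of_finrank_pos (R := F) (by omega)
  obtain ⟨b, hb⟩ := exists_ne (0 : V)
  have h1 := finrank_span_singleton_le (F := F) b
  obtain ⟨z, hz, -, p, hp, hzp⟩ := exists_norm_perp_witness H (Submodule.span F {b}) (by omega) 0
    (map_zero σ)
  rw [mem_perp_span_singleton] at hz hp
  refine ⟨z, b, hz, hb, ?_⟩
  intro hmem
  obtain ⟨c, rfl⟩ := Submodule.mem_span_singleton.1 hmem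
  apply hzp
  rw [map_smulₛₗ, LinearMap.smul_apply, hp, smul_zero]

end Cfsg.Agent.Lib.Helper94.U
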