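import Mathlib
import Cfsg.Agent.Lib.Helper83.ExtBase

set_option autoImplicit false
set_option linter.unusedSectionVars false

/-! Piece A of the S5886 farm. -/

namespace Cfsg.Agent.Lib.Helper94.Ext

open Module

variable {F K V : Type*} [Field F] [Field K] [Algebra F K] [AddCommGroup V] [Module F V] [Module K V]
  [IsScalarTower F K V]

theorem subfield_eq_top [Finite K] (hr : 2 ≤ finrank F K) (R : Subfield K)
    (h : ∀ β : K, β ≠ 0 → β ^ (Nat.card F - 1) ∈ R) : R = ⊤ := by
  classical
  have hFfin : Finite F := Finite.of_injective _ (algebraMap F K).injective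
  have := Fintype.ofFinite K
  set q := Nat.card F with hq
  set l := Nat.card R with hl
  set Q := Nat.card K with hQ
  have hq2 : 2 ≤ q := Finite.one_lt_card
  have hl2 : 2 ≤ l := Finite.one_lt_card
  have hQq : Q = q ^ finrank F K := Module.natCard_eq_pow_finrank (K := F) (V := K)
  have hQl : Q = l ^ finrank R K := Module.natCard_eq_pow_finrank (K := R) (V := K)
  by_contra hne
  have hd : 2 ≤ finrank R K := by
    by_contra hd
    have hpos : 0 < finrank R K := finrank_pos
    have h1 : finrank R K = 1 := by omega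
    rw [h1, pow_one] at hQl
    apply hne
    have h2 : R.toSubring.toAddSubgroup = ⊤ := AddSubgroup.eq_top_of_card_eq _ hQl.symm
    rw [eq_top_iff]
    intro x _
    have : x ∈ R.toSubring.toAddSubgroup := by rw [h2]; trivial
    exact this
  have hq2Q : q ^ 2 ≤ Q := by rw [hQq]; exact Nat.pow_le_pow_right (by omega) hr
  have hl2Q : l ^ 2 ≤ Q := by rw [hQl]; exact Nat.pow_le_pow_right (by omega) hd
  have hqlQ : q * l ≤ Q := by
    by_contra hcon
    push Not at hcon
    have : Q * Q < (q * l) * (q * l) := Nat.mul_lt_mul'' hcon hcon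
    have h3 : (q * l) * (q * l) = q ^ 2 * l ^ 2 := by ring
    have h4 : q ^ 2 * l ^ 2 ≤ Q * Q := Nat.mul_le_mul hq2Q hl2Q
    omega
  obtain ⟨ζ, hζ⟩ := IsCyclic.exists_generator (α := Kˣ)
  have hord : orderOf ζ = Q - 1 := by
    rw [orderOf_eq_card_of_forall_mem_zpowers hζ, Nat.card_units]
  have hmem := h (ζ : K) ζ.ne_zero
  have hpow : ((ζ : K) ^ (q - 1)) ^ (l - 1) = 1 := by
    have := Fintype.ofFinite R
    have h5 : (⟨(ζ : K) ^ (q - 1), hmem⟩ : R) ≠ 0 := by
      intro h0
      have := congrArg (Subtype.val) h0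
      simp at this
    have h6 := FiniteField.pow_card_sub_one_eq_one (⟨(ζ : K) ^ (q - 1), hmem⟩ : R) h5
    have h7 := congrArg (Subtype.val) h6
    have h8 : Fintype.card R = l := by rw [hl, Nat.card_eq_fintype_card]
    rw [h8] at h7
    simpa using h7
  have hpow' : ζ ^ ((q - 1) * (l - 1)) = 1 := by
    apply Units.ext
    rw [Units.val_pow_eq_pow_val, pow_mul, hpow]; rfl
  have hdvd := orderOf_dvd_of_pow_eq_one hpow'
  rw [hord] at hdvd
  have hpos : 0 < (q - 1) * (l - 1) := Nat.mul_pos (by omega) (by omega)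
  have hle := Nat.le_of_dvd hpos hdvd
  obtain ⟨a, ha⟩ : ∃ a, q = a + 2 := ⟨q - 2, by omega⟩
  obtain ⟨b, hb⟩ : ∃ b, l = b + 2 := ⟨l - 2, by omega⟩
  rw [ha, hb] at hle hqlQ
  have e1 : (a + 2 - 1) * (b + 2 - 1) = a * b + a + b + 1 := by
    have : a + 2 - 1 = a + 1 := by omega
    have h' : b + 2 - 1 = b + 1 := by omega
    rw [this, h']; ring
  have e2 : (a + 2) * (b + 2) = a * b + 2 * a + 2 * b + 4 := by ring
  rw [e1] at hle
  rw [e2] at hqlQ
  omega

theorem act_mem [Finite K] (hr : 2 ≤ finrank F K) {M : Type*} [AddCommGroup M]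
    (ρ : K →+* AddMonoid.End M) (A : AddSubgroup M)
    (h : ∀ β : K, β ≠ 0 → ∀ a ∈ A, ρ (β ^ (Nat.card F - 1)) a ∈ A) :
    ∀ (k : K), ∀ a ∈ A, ρ k a ∈ A := by
  classical
  have := Fintype.ofFinite K
  let R₀ : Subring K :=
    { carrier := {k | ∀ a ∈ A, ρ k a ∈ A}
      mul_mem' := by
        intro x y hx hy a ha
        rw [map_mul]
        exact hx _ (hy _ ha)
      one_mem' := by
        intro a ha
        rw [map_one]; exact ha
      add_mem' := by
        intro x y hx hy a ha
        rw [map_add]
        exact A.add_mem (hx _ ha) (hy _ ha)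
      zero_mem' := by
        intro a ha
        rw [map_zero]; exact A.zero_mem
      neg_mem' := by
        intro x hx a ha
        rw [map_neg]
        exact A.neg_mem (hx _ ha) }
  let R : Subfield K :=
    { R₀ with
      inv_mem' := by
        intro x hx
        by_cases hx0 : x = 0
        · subst hx0; simp
        · have h1 := FiniteField.pow_card_sub_one_eq_one x hx0
          have hc : 2 ≤ Fintype.card K := Fintype.one_lt_card
          have h2 : x⁻¹ = x ^ (Fintype.card K - 2) := by
            apply inv_eq_of_mul_eq_one_right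
            rw [← pow_succ']
            have : Fintype.card K - 2 + 1 = Fintype.card K - 1 := by omega
            rw [this, h1]
          rw [h2]
          exact R₀.pow_mem hx _ }
  have hR : R = ⊤ := subfield_eq_top (F := F) hr R (fun β hβ => h β hβ)
  intro k
  have : k ∈ R := by rw [hR]; trivial
  exact this

theorem norm_pow_card_sub_one [Finite K] (β : K) (hβ : β ≠ 0) :
    Algebra.norm F (β ^ (Nat.card F - 1)) = 1 := by
  classical
  have hFfin : Finite F := Finite.of_injective _ (algebraMap F K).injective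
  have := Fintype.ofFinite F
  rw [map_pow, Nat.card_eq_fintype_card]
  apply FiniteField.pow_card_sub_one_eq_one
  rw [Ne, Algebra.norm_eq_zero_iff]
  exact hβ

theorem exists_dual_comp [FiniteDimensional F K] [FiniteDimensional K V] (ξ : Dual F K) (hξ : ξ ≠ 0)
    (f : Dual F V) : ∃ η : Dual K V, ∀ v, f v = ξ (η v) := by
  have hFV : FiniteDimensional F V := FiniteDimensional.trans F K V
  let Φ : Dual K V →ₗ[F] Dual F V :=
    { toFun := fun η => ξ ∘ₗ (η.restrictScalars F)
      map_add' := by
        intro a b; ext v; simp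
      map_smul' := by
        intro c a; ext v; simp }
  have hinj : Function.Injective Φ := by
    rw [← LinearMap.ker_eq_bot, LinearMap.ker_eq_bot']
    intro η hη
    by_contra hne
    apply hξ
    obtain ⟨v, hv⟩ : ∃ v, η v ≠ 0 := by
      by_contra hcon
      push Not at hcon
      exact hne (LinearMap.ext hcon)
    ext k
    have := LinearMap.congr_fun hη ((k / η v) • v)
    simpa [Φ, hv] using this
  have hdim : finrank F (Dual K V) = finrank F (Dual F V) := by
    rw [← finrank_mul_finrank F K (Dual K V), Subspace.dual_finrank_eq, Subspace.dual_finrank_eq,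
      finrank_mul_finrank]
  have hsurj := (LinearMap.injective_iff_surjective_of_finrank_eq_finrank hdim).1 hinj
  obtain ⟨η, hη⟩ := hsurj f
  exact ⟨η, fun v => by rw [← hη]; rfl⟩

end Cfsg.Agent.Lib.Helper94.Ext
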