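import Mathlib
import Cfsg.Agent.Lib.Helper83.ExtBase
import Cfsg.Agent.Lib.Helper94.ExtA

set_option autoImplicit false
set_option linter.unusedSectionVars false

/-! Piece D of the S5886 farm: one transvection gives all transvections. -/

namespace Cfsg.Agent.Lib.Helper94.Ext

open Module Cfsg.Agent.Lib.Helper83.Ext

variable {F K V : Type*} [Field F] [Field K] [Algebra F K] [AddCommGroup V] [Module F V] [Module K V]
  [IsScalarTower F K V]

/-- the transvection with centre `c` and functional `f` lies in `G` -/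
def TT (G : Subgroup (V ≃ₗ[F] V)) (c : V) (f : Dual F V) : Prop :=
  f c = 0 ∧ 1 + f.smulRight c ∈ MS G

variable {G : Subgroup (V ≃ₗ[F] V)}

lemma TT_conj {g : V ≃ₗ[F] V} (hg : g ∈ G) {c : V} {f : Dual F V} (h : TT G c f) :
    TT G (g c) (f ∘ₗ (g.symm : V →ₗ[F] V)) := by
  refine ⟨by simp [h.1], ?_⟩
  have := MS_conj hg h.2
  convert this using 1
  ext x
  simp

lemma TT_add {c : V} {f f' : Dual F V} (h : TT G c f) (h' : TT G c f') : TT G c (f + f') := by
  refine ⟨by simp [h.1, h'.1], ?_⟩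
  have := MS_mul h.2 h'.2
  convert this using 1
  ext x
  simp [h.1, add_smul]
  abel

lemma TT_neg {c : V} {f : Dual F V} (h : TT G c f) : TT G c (-f) := by
  refine ⟨by simp [h.1], ?_⟩
  have := MS_sub_of_sq h.2 (by ext x; simp [h.1])
  convert this using 1
  ext x
  simp [sub_eq_add_neg]

lemma TT_sub {c : V} {f f' : Dual F V} (h : TT G c f) (h' : TT G c f') : TT G c (f - f') := by
  rw [sub_eq_add_neg]; exact TT_add h (TT_neg h')

lemma TT_zero (c : V) : TT G c 0 := ⟨by simp, by simpa using MS_one⟩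

lemma kt_symm_apply {η : Dual K V} {t : V} (h : η t = 0) (x : V) :
    (kt F h).symm x = x - η x • t := by
  rw [LinearEquiv.symm_apply_eq, kt_apply]
  simp [h]

lemma kt_smul {η : Dual K V} {t : V} (h : η t = 0) (k : K) (x : V) :
    kt F h (k • x) = k • kt F h x := by
  simp [smul_add, smul_smul]

/-- all transvections with centre `c` whose functional kills `K c` lie in `G` -/
def PP (K : Type*) {F V : Type*} [Field F] [Field K] [AddCommGroup V] [Module F V] [Module K V]
    (G : Subgroup (V ≃ₗ[F] V)) (c : V) : Prop :=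
  ∀ f : Dual F V, (∀ k : K, f (k • c) = 0) → TT G c f

/-- composition of an `F`-functional on `K` with a `K`-functional -/
def cmp (ξ : Dual F K) (η : Dual K V) : Dual F V := ξ ∘ₗ (η.restrictScalars F)

@[simp] lemma cmp_apply (ξ : Dual F K) (η : Dual K V) (v : V) : cmp ξ η v = ξ (η v) := rfl

lemma eta_zero_of_kill {ξ : Dual F K} (hξ : ξ ≠ 0) {η : Dual K V} {c : V}
    (h : ∀ k : K, ξ (η (k • c)) = 0) : η c = 0 := by
  by_contra hne
  apply hξ
  ext k
  have := h (k / η c)
  simpa [hne] using this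

lemma claim_b [Finite K] [FiniteDimensional K V] (hr : 2 ≤ finrank F K)
    (hH : HasH K G) {c0 : V} {f0 : Dual F V} (hf0 : f0 ≠ 0) (hT : TT G c0 f0) :
    PP K G c0 := by
  have hFK : FiniteDimensional F K := inferInstance
  by_cases hcase : ∀ k : K, f0 (k • c0) = 0
  · -- case (ii)
    obtain ⟨v0, hv0⟩ : ∃ v0, f0 v0 ≠ 0 := by
      by_contra hcon
      push Not at hcon
      exact hf0 (LinearMap.ext hcon)
    let ξ0 : Dual F K := f0 ∘ₗ (LinearMap.toSpanSingleton K V v0).restrictScalars F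
    have hξ0 : ξ0 ≠ 0 := by
      intro h0
      have := LinearMap.congr_fun h0 1
      simp [ξ0] at this
      exact hv0 this
    obtain ⟨η0, hη0⟩ := exists_dual_comp ξ0 hξ0 f0
    have hη0c : η0 c0 = 0 := eta_zero_of_kill hξ0 (fun k => by rw [← hη0]; exact hcase k)
    have hη0ne : η0 ≠ 0 := by
      rintro rfl
      apply hv0
      rw [hη0]; simp
    have hf0' : f0 = cmp ξ0 η0 := LinearMap.ext hη0
    obtain ⟨t, ht⟩ : ∃ t, η0 t = 1 := by
      obtain ⟨t, ht⟩ : ∃ t, η0 t ≠ 0 := by
        by_contra hcon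
        push Not at hcon
        exact hη0ne (LinearMap.ext hcon)
      exact ⟨(η0 t)⁻¹ • t, by simp [ht]⟩
    -- multiples of η0
    let A : AddSubgroup (Dual K V) :=
      { carrier := {η | (∃ k : K, η = k • η0) ∧ TT G c0 (cmp ξ0 η)}
        add_mem' := by
          rintro a b ⟨⟨k, rfl⟩, h1⟩ ⟨⟨k', rfl⟩, h2⟩
          refine ⟨⟨k + k', by rw [add_smul]⟩, ?_⟩
          have := TT_add h1 h2
          convert this using 1
          ext x; simp
        zero_mem' := by
          refine ⟨⟨0, by simp⟩, ?_⟩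
          have : cmp ξ0 (0 : Dual K V) = 0 := by ext x; simp
          rw [this]; exact TT_zero _
        neg_mem' := by
          rintro a ⟨⟨k, rfl⟩, h1⟩
          refine ⟨⟨-k, (neg_smul k η0).symm⟩, ?_⟩
          have := TT_neg h1
          convert this using 1
          ext x; simp }
    have hA0 : η0 ∈ A := ⟨⟨1, by simp⟩, hf0' ▸ hT⟩
    have hAact : ∀ β : K, β ≠ 0 → ∀ a ∈ A,
        (Module.toAddMonoidEnd K (Dual K V)) (β ^ (Nat.card F - 1)) a ∈ A := by
      rintro γ hγ a ⟨⟨k, rfl⟩, h1⟩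
      set β : K := (γ⁻¹) ^ (Nat.card F - 1) with hβ
      have hβ0 : β ≠ 0 := pow_ne_zero _ (inv_ne_zero hγ)
      have hβinv : β⁻¹ = γ ^ (Nat.card F - 1) := by rw [hβ, inv_pow, inv_inv]
      have hu : (1 + η0 ((β - 1) • t)) = β := by simp [ht]
      have hunit : IsUnit (1 + η0 ((β - 1) • t)) := by rw [hu]; exact hβ0.isUnit
      have hmem : kd F hunit ∈ G := by
        apply kd_mem hH hunit
        rw [hu]
        exact norm_pow_card_sub_one (F := F) _ (inv_ne_zero hγ)
      have hsymm : ∀ y, (kd F hunit).symm y = y - (β⁻¹ * (β - 1) * η0 y) • t := by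
        intro y
        rw [LinearEquiv.symm_apply_eq, kd_apply]
        simp only [map_sub, map_smul, smul_eq_mul, ht, mul_one, smul_smul]
        have : (η0 y - β⁻¹ * (β - 1) * η0 y) * (β - 1) = β⁻¹ * (β - 1) * η0 y := by
          field_simp
          ring
        rw [this, sub_add_cancel]
      have h2 := TT_conj hmem h1
      have hc : kd F hunit c0 = c0 := by simp [hη0c]
      rw [hc] at h2
      refine ⟨⟨γ ^ (Nat.card F - 1) * k, ?_⟩, ?_⟩
      · change γ ^ (Nat.card F - 1) • (k • η0) = _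
        rw [smul_smul]
      · convert h2 using 1
        ext y
        change ξ0 ((γ ^ (Nat.card F - 1) • (k • η0)) y) = ξ0 ((k • η0) ((kd F hunit).symm y))
        rw [hsymm, ← hβinv]
        congr 1
        simp only [LinearMap.smul_apply, smul_eq_mul, map_sub, map_smul, ht, mul_one]
        field_simp
        ring
    have hAall := act_mem (F := F) hr (Module.toAddMonoidEnd K (Dual K V)) A hAact
    have hmult : ∀ k : K, TT G c0 (cmp ξ0 (k • η0)) := fun k => (hAall k η0 hA0).2
    have hall : ∀ η' : Dual K V, η' c0 = 0 → TT G c0 (cmp ξ0 η') := by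
      intro η' hη'
      by_cases hker : ∀ y, η' y = 0 → η0 y = 0
      · by_cases hη'0 : η' = 0
        · have := hmult 0
          rwa [zero_smul, ← hη'0] at this
        · obtain ⟨v1, hv1⟩ : ∃ v1, η' v1 = 1 := by
            obtain ⟨t, ht⟩ : ∃ t, η' t ≠ 0 := by
              by_contra hcon
              push Not at hcon
              exact hη'0 (LinearMap.ext hcon)
            exact ⟨(η' t)⁻¹ • t, by simp [ht]⟩
          have h3 : η0 = (η0 v1) • η' := by
            ext y
            have := hker (y - η' y • v1) (by simp [hv1])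
            simp only [map_sub, map_smul, smul_eq_mul] at this
            simp only [LinearMap.smul_apply, smul_eq_mul]
            rw [sub_eq_zero.1 this, mul_comm]
          have h4 : η0 v1 ≠ 0 := by
            intro h0
            rw [h0, zero_smul] at h3
            exact hη0ne h3
          have h5 : η' = (η0 v1)⁻¹ • η0 := by
            rw [h3, smul_smul]
            simp [hv1, h4]
          rw [h5]; exact hmult _
      · push Not at hker
        obtain ⟨y, hy1, hy2⟩ := hker
        have hk : η' ((η0 y)⁻¹ • y) = 0 := by simp [hy1]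
        have h2 := TT_conj (kt_mem hH hk) (hmult 1)
        have hc : kt F hk c0 = c0 := by simp [hη']
        rw [hc, one_smul] at h2
        have h3 := TT_sub (hmult 1) h2
        rw [one_smul] at h3
        convert h3 using 1
        ext z
        simp only [cmp_apply, LinearMap.sub_apply, LinearMap.comp_apply, LinearEquiv.coe_coe,
          kt_symm_apply, map_sub, map_smul, smul_eq_mul]
        simp [hy2]
    intro f hf
    obtain ⟨η, hη⟩ := exists_dual_comp ξ0 hξ0 f
    have hηc : η c0 = 0 := eta_zero_of_kill hξ0 (fun k => by rw [← hη]; exact hf k)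
    have : f = cmp ξ0 η := LinearMap.ext hη
    rw [this]; exact hall η hηc
  · -- case (i)
    let ξ : Dual F K := f0 ∘ₗ (LinearMap.toSpanSingleton K V c0).restrictScalars F
    have hξa : ∀ k, ξ k = f0 (k • c0) := fun k => rfl
    have hξ : ξ ≠ 0 := by
      intro h0
      apply hcase
      intro k
      rw [← hξa, h0]; rfl
    intro f hf
    obtain ⟨η, hη⟩ := exists_dual_comp ξ hξ f
    have hηc : η c0 = 0 := eta_zero_of_kill hξ (fun k => by rw [← hη]; exact hf k)
    have h2 := TT_conj (kt_mem hH hηc) hT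
    have hc : kt F hηc c0 = c0 := by simp [hηc]
    rw [hc] at h2
    have h3 := TT_sub hT h2
    convert h3 using 1
    ext z
    simp only [LinearMap.sub_apply, LinearMap.comp_apply, LinearEquiv.coe_coe,
      kt_symm_apply, map_sub]
    rw [hη, hξa]; abel

lemma exists_dual_pair {c v : V} (h1 : ∀ k : K, v ≠ k • c) (h2 : ∀ k : K, c ≠ k • v) (a b : K) :
    ∃ η : Dual K V, η c = a ∧ η v = b := by
  have hv : v ∉ (K ∙ c) := by
    intro h
    obtain ⟨k, hk⟩ := Submodule.mem_span_singleton.1 h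
    exact h1 k hk.symm
  have hc : c ∉ (K ∙ v) := by
    intro h
    obtain ⟨k, hk⟩ := Submodule.mem_span_singleton.1 h
    exact h2 k hk.symm
  obtain ⟨φ, hφ1, hφ2⟩ := Submodule.exists_le_ker_of_notMem hv
  obtain ⟨φ', hφ1', hφ2'⟩ := Submodule.exists_le_ker_of_notMem hc
  have hφc : φ c = 0 := hφ2 (Submodule.mem_span_singleton_self c)
  have hφv : φ' v = 0 := hφ2' (Submodule.mem_span_singleton_self v)
  refine ⟨(b * (φ v)⁻¹) • φ + (a * (φ' c)⁻¹) • φ', ?_, ?_⟩
  · simp [hφc, hφ1']
  · simp [hφv, hφ1]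

lemma move1 [FiniteDimensional F K] (hH : HasH K G) {c v : V} (h1 : ∀ k : K, v ≠ k • c)
    (h2 : ∀ k : K, c ≠ k • v) (hP : PP K G c) : PP K G v := by
  obtain ⟨η, hηc, hηv⟩ := exists_dual_pair h1 h2 1 1
  have hk : η (v - c) = 0 := by simp [hηc, hηv]
  have hx : kt F hk c = v := by simp [hηc]
  intro f hf
  have h3 := hP (f ∘ₗ ((kt F hk : V ≃ₗ[F] V) : V →ₗ[F] V)) (by
    intro k
    simp only [LinearMap.comp_apply, LinearEquiv.coe_coe]
    rw [kt_smul, hx]; exact hf k)
  have h4 := TT_conj (kt_mem hH hk) h3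
  rw [hx] at h4
  convert h4 using 1
  ext z
  simp

theorem allTv_of_hasTv [Finite K] [FiniteDimensional K V] (hr : 2 ≤ finrank F K)
    (hm : 2 ≤ finrank K V) {G : Subgroup (V ≃ₗ[F] V)} (hH : HasH K G) (h : HasTv G) : AllTv G := by
  have hFK : FiniteDimensional F K := inferInstance
  obtain ⟨f0, c0, h0, hf0, hc0, hmem⟩ := h
  have hT : TT G c0 f0 := ⟨h0, (MS_tv_iff h0).1 hmem⟩
  have hP0 : PP K G c0 := claim_b hr hH hf0 hT
  have hsymm : ∀ {a b : V}, a ≠ 0 → (∀ k : K, b ≠ k • a) → ∀ k : K, a ≠ k • b := by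
    intro a b ha hb k hk
    by_cases hk0 : k = 0
    · subst hk0; simp at hk; exact ha hk
    · apply hb k⁻¹
      rw [hk, smul_smul, inv_mul_cancel₀ hk0, one_smul]
  have hPall : ∀ v : V, v ≠ 0 → PP K G v := by
    intro v hv
    by_cases hdep : ∀ k : K, v ≠ k • c0
    · exact move1 hH hdep (hsymm hc0 hdep) hP0
    · push Not at hdep
      obtain ⟨k, hk⟩ := hdep
      obtain ⟨w, hw⟩ := exists_not_mem_line (K := K) hm c0
      have hPw := move1 hH hw (hsymm hc0 hw) hP0
      have hk0 : k ≠ 0 := by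
        rintro rfl
        simp at hk; exact hv hk
      have hwv : ∀ k' : K, w ≠ k' • v := by
        intro k' h'
        apply hw (k' * k)
        rw [h', hk, smul_smul]
      exact move1 hH (hsymm hv hwv) hwv hPw
  intro ψ v hψ
  rw [MS_tv_iff]
  by_cases hv : v = 0
  · subst hv
    simpa using MS_one
  obtain ⟨w, hw⟩ := exists_not_mem_line (K := K) hm v
  have hw0 : w ≠ 0 := by
    rintro rfl
    exact hw 0 (by simp)
  have hvw := hsymm hv hw
  obtain ⟨ηv, hηv1, hηv2⟩ := exists_dual_pair hw hvw 1 0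
  obtain ⟨ηw, hηw1, hηw2⟩ := exists_dual_pair hw hvw 0 1
  obtain ⟨ξ1, hξ1⟩ : ∃ ξ1 : Dual F K, ξ1 1 = 1 := by
    have h1 : (1 : K) ∉ (⊥ : Submodule F K) := by simp
    obtain ⟨φ, hφ1, -⟩ := Submodule.exists_le_ker_of_notMem h1
    exact ⟨(φ 1)⁻¹ • φ, by simp [hφ1]⟩
  let ψ1 : Dual F V := ψ ∘ₗ ((ηv.smulRight v).restrictScalars F)
  have hψ1a : ∀ u, ψ1 u = ψ (ηv u • v) := fun u => rfl
  have hTφ : TT G v (cmp ξ1 ηw) := hPall v hv _ (by intro k; simp [hηw1])
  have hTψ1 : TT G w ψ1 := hPall w hw0 _ (by intro k; rw [hψ1a]; simp [hηv2])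
  have hTψ0 : TT G v (ψ - ψ1) := hPall v hv _ (by
    intro k
    rw [LinearMap.sub_apply, hψ1a]; simp [hηv1])
  have hψ1v : ψ1 v = 0 := by rw [hψ1a, hηv1, one_smul]; exact hψ
  have hcomm := MS_comm hTφ.2 hTψ1.2 (by ext x; simp [hηw1]) (by ext x; simp [hTψ1.1])
    (by ext x; simp [hψ1v])
  have hTψ1v : TT G v ψ1 := by
    refine ⟨hψ1v, ?_⟩
    convert hcomm using 2
    ext x
    simp [hηw2, hξ1]
  have := TT_add hTψ0 hTψ1v
  rw [sub_add_cancel] at this
  exact this.2

end Cfsg.Agent.Lib.Helper94.Ext
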