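import Mathlib
import Cfsg.Prelude.Def_GeometricClasses
import Cfsg.Agent.Lib.Helper94.FormB

set_option autoImplicit false

/-! Extension field normalisers of composite degree are not maximal. -/

namespace Cfsg.Agent.Lib.Helper94.ExtF

open Matrix Cfsg.Geo

variable {F : Type*} [Field F] [Fintype F] {n : ℕ}

section core

variable {E : Type*} [Field E] [Algebra F E]
variable (ρ : E →ₐ[F] Matrix (Fin n) (Fin n) F)

/-- the `E`-module structure on `F^n` -/
@[reducible] def modE : Module E (Fin n → F) where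
  smul x v := ρ x *ᵥ v
  one_smul v := by change ρ 1 *ᵥ v = v; simp
  mul_smul x y v := by change ρ (x * y) *ᵥ v = ρ x *ᵥ (ρ y *ᵥ v); simp [map_mul]
  smul_zero x := by change ρ x *ᵥ 0 = 0; simp
  smul_add x v w := by change ρ x *ᵥ (v + w) = _; exact Matrix.mulVec_add _ _ _
  add_smul x y v := by change ρ (x + y) *ᵥ v = _; rw [map_add]; exact Matrix.add_mulVec _ _ _
  zero_smul v := by change ρ 0 *ᵥ v = 0; simp

/-- fixed subalgebra of `x ↦ x ^ Q` inside the image of `ρ`. -/
def fixAlg (s : ℕ) : Subalgebra F (Matrix (Fin n) (Fin n) F) :=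
  (AlgHom.equalizer ((FiniteField.frobeniusAlgHom F E) ^ s) (AlgHom.id F E)).map ρ

lemma frob_pow_apply (s : ℕ) (x : E) :
    ((FiniteField.frobeniusAlgHom F E) ^ s) x = x ^ (Fintype.card F ^ s) := by
  rw [AlgHom.coe_pow, FiniteField.coe_frobeniusAlgHom, pow_iterate]

omit [Fintype F] in
lemma rho_inj [NeZero n] : Function.Injective ρ := ρ.toRingHom.injective

lemma mem_fixAlg [NeZero n] (s : ℕ) (k : Matrix (Fin n) (Fin n) F) :
    k ∈ fixAlg ρ s ↔ k ∈ ρ.range ∧ k ^ (Fintype.card F ^ s) = k := by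
  unfold fixAlg
  rw [Subalgebra.mem_map]
  constructor
  · rintro ⟨x, hx, rfl⟩
    rw [AlgHom.mem_equalizer, frob_pow_apply] at hx
    refine ⟨⟨x, rfl⟩, ?_⟩
    rw [← map_pow, hx]; rfl
  · rintro ⟨⟨x, rfl⟩, hx⟩
    refine ⟨x, ?_, rfl⟩
    rw [AlgHom.mem_equalizer, frob_pow_apply]
    apply rho_inj ρ
    change ρ (x ^ _) = ρ x
    rw [map_pow]; exact hx

lemma mem_fixAlg' (s : ℕ) (k : Matrix (Fin n) (Fin n) F) :
    k ∈ fixAlg ρ s ↔ ∃ y : E, y ^ (Fintype.card F ^ s) = y ∧ ρ y = k := by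
  unfold fixAlg
  rw [Subalgebra.mem_map]
  constructor
  · rintro ⟨x, hx, rfl⟩
    rw [AlgHom.mem_equalizer, frob_pow_apply] at hx
    exact ⟨x, hx, rfl⟩
  · rintro ⟨x, hx, rfl⟩
    exact ⟨x, by rw [AlgHom.mem_equalizer, frob_pow_apply]; exact hx, rfl⟩

lemma normalizer_le [NeZero n] (s : ℕ) :
    subalgebraNormalizer ρ.range ≤ subalgebraNormalizer (fixAlg ρ s) := by
  intro g hg k
  rw [mem_fixAlg, mem_fixAlg, ← hg k, Units.conj_pow]
  constructor
  · rintro ⟨h1, h2⟩; exact ⟨h1, by rw [h2]⟩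
  · rintro ⟨h1, h2⟩
    refine ⟨h1, ?_⟩
    have := congrArg (fun M => ((g⁻¹ : GL (Fin n) F) : Matrix (Fin n) (Fin n) F) * M * (g : Matrix (Fin n) (Fin n) F)) h2
    simpa [mul_assoc] using this

omit [Fintype F] in
lemma eq_zero_of_mulVec [NeZero n] {e : E} {w : Fin n → F} (hw : w ≠ 0) (h : ρ e *ᵥ w = 0) : e = 0 := by
  by_contra he
  apply hw
  have : ρ e⁻¹ *ᵥ (ρ e *ᵥ w) = w := by
    rw [Matrix.mulVec_mulVec, ← map_mul, inv_mul_cancel₀ he, map_one, Matrix.one_mulVec]
  rw [← this, h, Matrix.mulVec_zero]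

end core

section uni

omit [Fintype F] in
/-- the unit `1 + N` for `N ^ 2 = 0` -/
def uni (N : Matrix (Fin n) (Fin n) F) (hN : N * N = 0) : GL (Fin n) F :=
  ⟨1 + N, 1 - N, by rw [add_mul, mul_sub, mul_sub, hN]; simp, by rw [sub_mul, mul_add, mul_add, hN]; simp⟩

lemma det_one_add (N : Matrix (Fin n) (Fin n) F) (hN : N * N = 0) : (1 + N).det = 1 := by
  obtain ⟨p, hp⟩ := CharP.exists F
  have := hp
  have : Fact p.Prime := ⟨CharP.char_is_prime F p⟩
  have h1 : ∀ k : ℕ, (1 + N) ^ k = 1 + (k : F) • N := by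
    intro k
    induction k with
    | zero => simp
    | succ k ih =>
      rw [pow_succ, ih, add_mul, mul_add, mul_add, Matrix.smul_mul, Matrix.smul_mul, hN]
      simp only [mul_one, one_mul, smul_zero, add_zero, Nat.cast_add, Nat.cast_one, add_smul, one_smul]
      abel
  have h2 : (1 + N) ^ p = 1 := by rw [h1, CharP.cast_eq_zero]; simp
  have h3 : ((1 + N).det) ^ p = 1 := by rw [← Matrix.det_pow, h2, Matrix.det_one]
  exact frobenius_inj F p (by simpa [frobenius_def] using h3)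

lemma uni_mem_sl (N : Matrix (Fin n) (Fin n) F) (hN : N * N = 0) :
    uni N hN ∈ specialLinear (Fin n) F := by
  rw [Cfsg.Agent.Lib.Helper94.mem_specialLinear_iff]
  exact det_one_add N hN

omit [Fintype F] in
lemma exists_tv_data [NeZero n] (x : Matrix (Fin n) (Fin n) F) (hx : ∀ c : F, x ≠ c • 1) :
    ∃ (v φ : Fin n → F), φ ⬝ᵥ v = 0 ∧ φ ⬝ᵥ (x *ᵥ v) ≠ 0 := by
  by_contra h
  push Not at h
  have hoff : ∀ i j : Fin n, i ≠ j → x i j = 0 := by
    intro i j hij
    have := h (Pi.single j 1) (Pi.single i 1) (by simp [hij])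
    simpa using this
  have hdiag : ∀ i j : Fin n, i ≠ j → x i i = x j j := by
    intro i j hij
    have := h (Pi.single i 1 + Pi.single j 1) (Pi.single i 1 - Pi.single j 1)
      (by simp [sub_dotProduct, dotProduct_add, hij, hij.symm])
    simp [sub_dotProduct, Matrix.mulVec_add, hoff i j hij, hoff j i hij.symm] at this
    exact add_neg_eq_zero.1 this
  apply hx (x 0 0)
  ext i j
  by_cases hij : i = j
  · subst hij
    by_cases h0 : i = 0
    · subst h0; simp
    · simp [hdiag i 0 h0]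
  · simp [hoff i j hij, hij]

end uni

section main

variable {E : Type*} [Field E] [Algebra F E] [Finite E]
variable (ρ : E →ₐ[F] Matrix (Fin n) (Fin n) F)

lemma card_E (r : ℕ) (hr : Module.finrank F E = r) : Nat.card E = Fintype.card F ^ r := by
  rw [← hr, Module.natCard_eq_pow_finrank (K := F) (V := E), Nat.card_eq_fintype_card]

lemma exists_gen (r : ℕ) (hr : Module.finrank F E = r) :
    ∃ ζ : Eˣ, orderOf ζ = Fintype.card F ^ r - 1 := by
  obtain ⟨ζ, hζ⟩ := IsCyclic.exists_generator (α := Eˣ)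
  refine ⟨ζ, ?_⟩
  rw [orderOf_eq_card_of_forall_mem_zpowers hζ, Nat.card_units, card_E r hr]

/-- a transvection outside the normaliser of a subalgebra of `ρ.range` with a non-scalar member -/
theorem exists_h3 [NeZero n] (hn : 2 < n) (K₁ : Subalgebra F (Matrix (Fin n) (Fin n) F))
    (hK₁ : K₁ ≤ ρ.range) (x : Matrix (Fin n) (Fin n) F) (hx : x ∈ K₁) (hxs : ∀ c : F, x ≠ c • 1) :
    ∃ h3 : GL (Fin n) F, h3 ∈ specialLinear (Fin n) F ∧ h3 ∉ subalgebraNormalizer K₁ := by
  obtain ⟨v, φ, hφv, hφx⟩ := exists_tv_data x hxs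
  have hN : vecMulVec v φ * vecMulVec v φ = 0 := by
    rw [Matrix.vecMulVec_mul_vecMulVec, hφv]; simp
  refine ⟨uni _ hN, uni_mem_sl _ hN, fun hmem => ?_⟩
  have hx' := (hmem x).1 hx
  have hy : ((uni _ hN : GL (Fin n) F) : Matrix (Fin n) (Fin n) F) * x *
      (((uni _ hN)⁻¹ : GL (Fin n) F) : Matrix (Fin n) (Fin n) F) - x ∈ K₁ := K₁.sub_mem hx' hx
  obtain ⟨e, he⟩ := hK₁ hy
  have hval : ((uni _ hN : GL (Fin n) F) : Matrix (Fin n) (Fin n) F) = 1 + vecMulVec v φ := rfl
  have hinv : (((uni _ hN)⁻¹ : GL (Fin n) F) : Matrix (Fin n) (Fin n) F) = 1 - vecMulVec v φ := rfl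
  have key : ∀ w : Fin n → F, φ ⬝ᵥ w = 0 → ρ e *ᵥ w = (φ ⬝ᵥ (x *ᵥ w)) • v := by
    intro w hw
    have he' : ρ e = (1 + vecMulVec v φ) * x * (1 - vecMulVec v φ) - x := by
      rw [← hval, ← hinv]; exact he
    rw [he', Matrix.sub_mulVec, ← Matrix.mulVec_mulVec, Matrix.sub_mulVec, Matrix.vecMulVec_mulVec, hw,
      ← Matrix.mulVec_mulVec, Matrix.add_mulVec, Matrix.vecMulVec_mulVec]
    simp
  -- a vector killed
  let φl : (Fin n → F) →ₗ[F] F := dotProductEquiv F (Fin n) φ
  have hφl : ∀ w, φl w = φ ⬝ᵥ w := fun w => rfl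
  let L : (Fin n → F) →ₗ[F] F × F := LinearMap.prod φl (φl ∘ₗ Matrix.toLin' x)
  have hker : LinearMap.ker L ≠ ⊥ := by
    apply LinearMap.ker_ne_bot_of_finrank_lt
    simp [hn]
  obtain ⟨w, hw, hw0⟩ := (Submodule.ne_bot_iff _).1 hker
  rw [LinearMap.mem_ker] at hw
  have hw1 : φ ⬝ᵥ w = 0 := congrArg Prod.fst hw
  have hw2 : φ ⬝ᵥ (x *ᵥ w) = 0 := congrArg Prod.snd hw
  have he0 : e = 0 := eq_zero_of_mulVec ρ hw0 (by rw [key w hw1, hw2, zero_smul])
  have := key v hφv
  rw [he0, map_zero, Matrix.zero_mulVec] at this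
  rcases smul_eq_zero.1 this.symm with h | h
  · exact hφx h
  · apply hφx; rw [h]; simp

/-- a unipotent element normalising the intermediate field but not the big one -/
theorem exists_h2 [NeZero n] (r s : ℕ) (hr : Module.finrank F E = r) (hs0 : 0 < s) (hsr : s < r)
    (hrn : r < n) :
    ∃ h2 : GL (Fin n) F, h2 ∈ specialLinear (Fin n) F ∧ h2 ∈ subalgebraNormalizer (fixAlg ρ s) ∧
      h2 ∉ subalgebraNormalizer ρ.range := by
  let _ := modE ρ
  have : IsScalarTower F E (Fin n → F) := ⟨fun c x v => by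
    change ρ (c • x) *ᵥ v = c • (ρ x *ᵥ v); rw [map_smul, Matrix.smul_mulVec]⟩
  have smul_def : ∀ (x : E) (v : Fin n → F), x • v = ρ x *ᵥ v := fun _ _ => rfl
  obtain ⟨ζ, hζ⟩ := exists_gen (F := F) (E := E) r hr
  have hq : 1 < Fintype.card F := Fintype.one_lt_card
  -- ζ is not fixed
  have hζfix : (ζ : E) ^ (Fintype.card F ^ s) ≠ ζ := by
    intro h
    have h1 : ζ ^ (Fintype.card F ^ s - 1) = 1 := by
      apply Units.ext
      have h2 : (ζ : E) ^ (Fintype.card F ^ s - 1) * ζ = 1 * ζ := by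
        rw [← pow_succ, Nat.sub_add_cancel (Nat.one_le_pow _ _ (by omega)), h, one_mul]
      simpa using mul_right_cancel₀ ζ.ne_zero h2
    have h2 := orderOf_dvd_of_pow_eq_one h1
    rw [hζ] at h2
    have h3 : Fintype.card F ^ s < Fintype.card F ^ r := Nat.pow_lt_pow_right hq hsr
    have h4 : 1 < Fintype.card F ^ s := Nat.one_lt_pow (by omega) hq
    have := Nat.le_of_dvd (by omega) h2
    omega
  set b₂ : Fin n → F := Pi.single 0 1 with hb₂def
  have hb₂ : b₂ ≠ 0 := by
    intro h; have := congrFun h 0; simp [hb₂def] at this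
  have hp : (Submodule.span E {b₂}) < ⊤ := by
    rw [lt_top_iff_ne_top]; intro htop
    have hsurj : Function.Surjective (fun x : E => x • b₂) := by
      intro v
      have : v ∈ Submodule.span E {b₂} := htop ▸ Submodule.mem_top
      exact Submodule.mem_span_singleton.1 this
    have := Nat.card_le_card_of_surjective _ hsurj
    rw [card_E (F := F) r hr, Nat.card_eq_fintype_card, Fintype.card_fun, Fintype.card_fin] at this
    have h3 : Fintype.card F ^ r < Fintype.card F ^ n := Nat.pow_lt_pow_right hq hrn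
    omega
  obtain ⟨f, hf0, hfp⟩ := Submodule.exists_dual_map_eq_bot_of_lt_top hp inferInstance
  have hfb₂ : f b₂ = 0 := by
    have : f b₂ ∈ (Submodule.span E {b₂}).map f := ⟨b₂, Submodule.mem_span_singleton_self _, rfl⟩
    rw [hfp] at this
    simpa using this
  obtain ⟨b₁, hb₁⟩ : ∃ b₁, f b₁ ≠ 0 := by
    by_contra h; push Not at h; exact hf0 (LinearMap.ext h)
  let Nl : (Fin n → F) →ₗ[F] (Fin n → F) :=
    ((LinearMap.toSpanSingleton E (Fin n → F) b₂).restrictScalars F) ∘ₗ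
      ((FiniteField.frobeniusAlgHom F E) ^ s).toLinearMap ∘ₗ (f.restrictScalars F)
  have hNl : ∀ v, Nl v = (f v) ^ (Fintype.card F ^ s) • b₂ := by
    intro v
    simp only [Nl, LinearMap.comp_apply, LinearMap.restrictScalars_apply, AlgHom.toLinearMap_apply,
      frob_pow_apply, LinearMap.toSpanSingleton_apply]
  have hQ0 : Fintype.card F ^ s ≠ 0 := by positivity
  set N : Matrix (Fin n) (Fin n) F := LinearMap.toMatrix' Nl with hNdef
  have hNv : ∀ v, N *ᵥ v = (f v) ^ (Fintype.card F ^ s) • b₂ := by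
    intro v
    rw [← hNl, hNdef, ← Matrix.toLin'_apply, Matrix.toLin'_toMatrix']
  have hNN : N * N = 0 := by
    apply Matrix.mulVec_injective
    funext v
    rw [← Matrix.mulVec_mulVec, hNv, hNv, map_smul, hfb₂]
    simp [hQ0]
  have hcomm : ∀ y : E, y ^ (Fintype.card F ^ s) = y → N * ρ y = ρ y * N := by
    intro y hy
    apply Matrix.mulVec_injective
    funext v
    rw [← Matrix.mulVec_mulVec, ← Matrix.mulVec_mulVec, hNv, hNv, ← smul_def, ← smul_def, map_smul,
      smul_eq_mul, mul_pow, hy, mul_smul]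
  have hval : ((uni N hNN : GL (Fin n) F) : Matrix (Fin n) (Fin n) F) = 1 + N := rfl
  have hinv : (((uni N hNN)⁻¹ : GL (Fin n) F) : Matrix (Fin n) (Fin n) F) = 1 - N := rfl
  have hone : (1 + N) * (1 - N) = 1 := by rw [add_mul, mul_sub, mul_sub, hNN]; simp
  have hone' : (1 - N) * (1 + N) = 1 := by rw [sub_mul, mul_add, mul_add, hNN]; simp
  have hfixc : ∀ k ∈ fixAlg ρ s, (1 + N) * k = k * (1 + N) := by
    intro k hk
    obtain ⟨y, hy, rfl⟩ := (mem_fixAlg' ρ s k).1 hk
    rw [add_mul, mul_add, hcomm y hy]; simp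
  refine ⟨uni N hNN, uni_mem_sl N hNN, ?_, ?_⟩
  · intro k
    rw [hval, hinv]
    constructor
    · intro hk
      rw [hfixc k hk, mul_assoc, hone, mul_one]; exact hk
    · intro hk
      have h1 := hfixc _ hk
      have h2 : (1 + N) * k * (1 - N) = k := by
        have h3 : (1 + N) * ((1 + N) * k * (1 - N)) = (1 + N) * k := by
          rw [h1, mul_assoc, mul_assoc, hone', mul_one]
        have h4 := congrArg (fun M => (1 - N) * M) h3
        simp only [← mul_assoc, hone', one_mul] at h4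
        simpa [mul_assoc] using h4
      rw [h2] at hk; exact hk
  · intro hmem
    have h1 := (hmem (ρ ζ)).1 ⟨ζ, rfl⟩
    rw [hval, hinv] at h1
    obtain ⟨x', hx'⟩ := h1
    have h2 : ρ x' * (1 + N) = (1 + N) * ρ ζ := by
      change ρ x' = _ at hx'
      rw [hx', mul_assoc, hone', mul_one]
    have hNb₂ : N *ᵥ b₂ = 0 := by rw [hNv, hfb₂]; simp [hQ0]
    have h3 := congrArg (fun M => M *ᵥ b₂) h2
    simp only [← Matrix.mulVec_mulVec, Matrix.add_mulVec, Matrix.one_mulVec, hNb₂, add_zero] at h3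
    rw [hNv, ← smul_def, ← smul_def, map_smul, hfb₂] at h3
    simp only [smul_zero, ne_eq, hQ0, not_false_eq_true, zero_pow, zero_smul, add_zero] at h3
    have h4 : x' = ζ := by
      have : (x' - ζ) • b₂ = 0 := by rw [sub_smul, h3, sub_self]
      rcases smul_eq_zero.1 this with h | h
      · exact sub_eq_zero.1 h
      · exact absurd h hb₂
    rw [h4] at h2
    have h5 := congrArg (fun M => M *ᵥ b₁) h2
    simp only [← Matrix.mulVec_mulVec, Matrix.add_mulVec, Matrix.one_mulVec, Matrix.mulVec_add] at h5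
    have h6 := add_left_cancel h5
    rw [hNv, hNv, ← smul_def, ← smul_def, map_smul, smul_eq_mul, mul_pow, ← mul_smul] at h6
    have h7 : ((ζ : E) * f b₁ ^ (Fintype.card F ^ s) - (ζ : E) ^ (Fintype.card F ^ s) * f b₁ ^ (Fintype.card F ^ s)) • b₂ = 0 := by
      rw [sub_smul, h6, sub_self]
    rcases smul_eq_zero.1 h7 with h | h
    · rw [← sub_mul] at h
      rcases mul_eq_zero.1 h with h | h
      · exact hζfix (sub_eq_zero.1 h).symm
      · exact hb₁ (pow_eq_zero_iff hQ0 |>.1 h)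
    · exact hb₂ h

theorem exists_nonscalar [NeZero n] (r s : ℕ) (hr : Module.finrank F E = r) (hs1 : 1 < s)
    (hdvd : s ∣ r) (hr0 : 0 < r) : ∃ x ∈ fixAlg ρ s, ∀ c : F, x ≠ c • 1 := by
  obtain ⟨ζ, hζ⟩ := exists_gen (F := F) (E := E) r hr
  have hq : 1 < Fintype.card F := Fintype.one_lt_card
  obtain ⟨M, hM⟩ := Nat.pow_sub_one_dvd_pow_sub_one (Fintype.card F) hdvd
  have hqs : Fintype.card F < Fintype.card F ^ s := by
    calc Fintype.card F = Fintype.card F ^ 1 := (pow_one _).symm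
      _ < Fintype.card F ^ s := Nat.pow_lt_pow_right hq hs1
  have hqr : 1 < Fintype.card F ^ r := Nat.one_lt_pow (by omega) hq
  have hM0 : 0 < M := by
    rcases Nat.eq_zero_or_pos M with h | h
    · rw [h, mul_zero] at hM; omega
    · exact h
  have h1 : (ζ ^ M) ^ (Fintype.card F ^ s - 1) = 1 := by
    rw [← pow_mul, mul_comm, ← hM, ← hζ, pow_orderOf_eq_one]
  refine ⟨ρ ((ζ ^ M : Eˣ) : E), (mem_fixAlg' ρ s _).2 ⟨_, ?_, rfl⟩, ?_⟩
  · have h2 : (((ζ ^ M : Eˣ) : E)) ^ (Fintype.card F ^ s - 1) = 1 := by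
      rw [← Units.val_pow_eq_pow_val, h1, Units.val_one]
    calc (((ζ ^ M : Eˣ) : E)) ^ (Fintype.card F ^ s)
        = (((ζ ^ M : Eˣ) : E)) ^ (Fintype.card F ^ s - 1 + 1) := by
          rw [Nat.sub_add_cancel (by omega)]
      _ = _ := by rw [pow_succ, h2, one_mul]
  · intro c hc
    have h2 : ((ζ ^ M : Eˣ) : E) = algebraMap F E c := by
      apply rho_inj ρ
      rw [hc, AlgHom.commutes, Algebra.algebraMap_eq_smul_one]
    have hc0 : c ≠ 0 := by
      rintro rfl
      rw [map_zero] at h2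
      exact (ζ ^ M).ne_zero h2
    have h3 : (ζ ^ M) ^ (Fintype.card F - 1) = 1 := by
      apply Units.ext
      rw [Units.val_pow_eq_pow_val, h2, ← map_pow, FiniteField.pow_card_sub_one_eq_one c hc0, map_one,
        Units.val_one]
    rw [← pow_mul] at h3
    have h4 := orderOf_dvd_of_pow_eq_one h3
    rw [hζ, hM, mul_comm] at h4
    have h5 := Nat.dvd_of_mul_dvd_mul_left hM0 h4
    have := Nat.le_of_dvd (by omega) h5
    omega

theorem not_maximal_core [NeZero n] (r : ℕ) (hr : Module.finrank F E = r) (hr1 : 1 < r)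
    (hrp : ¬ r.Prime) (hlt : r < n) :
    ¬ IsCoatom (subalgebraNormalizer ρ.range) ∧
      ¬ IsMaximalIn (specialLinear (Fin n) F)
        (subalgebraNormalizer ρ.range ⊓ specialLinear (Fin n) F) := by
  have hs1 : 1 < r.minFac := (Nat.minFac_prime (by omega)).one_lt
  have hsr : r.minFac < r := (Nat.not_prime_iff_minFac_lt (by omega)).1 hrp
  have hdvd : r.minFac ∣ r := Nat.minFac_dvd r
  obtain ⟨h2, h2sl, h2mem, h2not⟩ := exists_h2 ρ r r.minFac hr (by omega) hsr hlt
  obtain ⟨x, hx, hxs⟩ := exists_nonscalar ρ r r.minFac hr hs1 hdvd (by omega)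
  have hle : fixAlg ρ r.minFac ≤ ρ.range := fun k hk => ((mem_fixAlg ρ _ k).1 hk).1
  obtain ⟨h3, h3sl, h3not⟩ := exists_h3 ρ (by omega) (fixAlg ρ r.minFac) hle x hx hxs
  have hN := normalizer_le ρ r.minFac
  constructor
  · intro hco
    have hlt' : subalgebraNormalizer ρ.range < subalgebraNormalizer (fixAlg ρ r.minFac) :=
      lt_of_le_of_ne hN (fun h => h2not (h ▸ h2mem))
    have := hco.2 _ hlt'
    exact h3not (this ▸ Subgroup.mem_top _)
  · intro hmax
    rcases hmax.2 (subalgebraNormalizer (fixAlg ρ r.minFac) ⊓ specialLinear (Fin n) F)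
      (inf_le_inf_right _ hN) inf_le_right with h | h
    · have : h2 ∈ subalgebraNormalizer ρ.range ⊓ specialLinear (Fin n) F := h ▸ ⟨h2mem, h2sl⟩
      exact h2not this.1
    · have : h3 ∈ subalgebraNormalizer (fixAlg ρ r.minFac) ⊓ specialLinear (Fin n) F := by
        rw [h]; exact h3sl
      exact h3not this.1

end main

section inst

theorem isFieldK [NeZero n] {r : ℕ} (K : Subalgebra F (Matrix (Fin n) (Fin n) F))
    (hK : IsFieldSubalgebra r K) : IsField K where
  exists_pair_ne := ⟨0, 1, zero_ne_one⟩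
  mul_comm := fun x y => Subtype.ext (hK.comm x x.2 y y.2)
  mul_inv_cancel := fun {x} hx => by
    obtain ⟨y, hy, hxy⟩ := hK.inv x x.2 (fun h => hx (Subtype.ext h))
    exact ⟨⟨y, hy⟩, Subtype.ext hxy⟩

theorem not_maximal (r : ℕ) (hr1 : 1 < r) (hrp : ¬ r.Prime) (hlt : r < n)
    (K : Subalgebra F (Matrix (Fin n) (Fin n) F)) (hK : IsFieldSubalgebra r K) :
    ¬ IsCoatom (subalgebraNormalizer K) ∧
      ¬ IsMaximalIn (specialLinear (Fin n) F) (subalgebraNormalizer K ⊓ specialLinear (Fin n) F) := by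
  have : NeZero n := ⟨by omega⟩
  letI : Field K := (isFieldK K hK).toField
  have := not_maximal_core (E := K) K.val r hK.finrank_eq hr1 hrp hlt
  rwa [Subalgebra.range_val] at this

end inst

end Cfsg.Agent.Lib.Helper94.ExtF
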