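import Mathlib
import Cfsg.Prelude.Def_GeometricClasses
import Cfsg.Agent.Lib.Helper83.ExtBase
import Cfsg.Agent.Lib.Helper83.ExtMain
import Cfsg.Agent.Lib.Helper94.Transfer
import Cfsg.Agent.Lib.Helper94.SLGen
import Cfsg.Agent.Lib.Helper94.SympWrap
import Cfsg.Agent.Lib.Helper94.FormB
import Cfsg.Agent.Lib.Helper94.ExtF

set_option autoImplicit false
set_option linter.style.haveILetI false
set_option linter.unusedVariables false

/-! Piece W of the S5886 farm: the matrix wrapper. -/

namespace Cfsg.Agent.Lib.Helper94.Ext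

open Module Matrix Cfsg.Geo Cfsg.Agent.Lib.Helper83.Ext Cfsg.Agent.Lib.Helper94.ExtF

variable {F : Type*} [Field F] [Fintype F] {n : ℕ}

section core

variable {E : Type*} [Field E] [Algebra F E] [Finite E]
variable (ρ : E →ₐ[F] Matrix (Fin n) (Fin n) F)

omit [Fintype F] [Finite E] in
lemma tower : letI := modE ρ; IsScalarTower F E (Fin n → F) := by
  letI := modE ρ
  refine ⟨fun c e v => ?_⟩
  change ρ (c • e) *ᵥ v = c • (ρ e *ᵥ v)
  rw [map_smul, Matrix.smul_mulVec]

omit [Fintype F] in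
lemma mem_normalizer_iff [NeZero n] (g : GL (Fin n) F) :
    letI := modE ρ
    g ∈ subalgebraNormalizer ρ.range ↔ IsSemi E (glEquiv (Fin n) F g) := by
  letI := modE ρ
  have hsm : ∀ (e : E) (v : Fin n → F), e • v = ρ e *ᵥ v := fun e v => rfl
  constructor
  · intro hg e
    obtain ⟨e', he'⟩ := (hg (ρ e)).1 ⟨e, rfl⟩
    refine ⟨e', fun v => ?_⟩
    have he'' : ρ e' = (g : Matrix (Fin n) (Fin n) F) * ρ e * ((g⁻¹ : GL (Fin n) F) : Matrix (Fin n) (Fin n) F) := he'
    rw [glEquiv_apply, glEquiv_apply, hsm, hsm, he'', Matrix.mulVec_mulVec, Matrix.mulVec_mulVec]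
    congr 1
    rw [mul_assoc, mul_assoc, ← Units.val_mul, inv_mul_cancel, Units.val_one, mul_one]
  · intro hs
    choose φ hφ using hs
    have hmat : ∀ e, (g : Matrix (Fin n) (Fin n) F) * ρ e = ρ (φ e) * (g : Matrix (Fin n) (Fin n) F) := by
      intro e
      ext i v
      have := hφ e (Pi.single v 1)
      rw [glEquiv_apply, glEquiv_apply, hsm, hsm, Matrix.mulVec_mulVec, Matrix.mulVec_mulVec] at this
      have := congrFun this i
      simpa using this
    have hconj : ∀ e, (g : Matrix (Fin n) (Fin n) F) * ρ e *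
        ((g⁻¹ : GL (Fin n) F) : Matrix (Fin n) (Fin n) F) = ρ (φ e) := by
      intro e
      rw [hmat, mul_assoc, ← Units.val_mul, mul_inv_cancel, Units.val_one, mul_one]
    have hinj : Function.Injective φ := by
      intro a b hab
      apply rho_inj ρ
      have h1 := hmat a
      rw [hab, ← hmat b] at h1
      have := congrArg (fun M => ((g⁻¹ : GL (Fin n) F) : Matrix (Fin n) (Fin n) F) * M) h1
      simpa [← mul_assoc] using this
    have hsurj := Finite.injective_iff_surjective.1 hinj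
    intro k
    constructor
    · rintro ⟨e, rfl⟩
      exact ⟨φ e, (hconj e).symm⟩
    · rintro ⟨e', he'⟩
      obtain ⟨e, rfl⟩ := hsurj e'
      refine ⟨e, ?_⟩
      have h1 : (g : Matrix (Fin n) (Fin n) F) * ρ e * ((g⁻¹ : GL (Fin n) F) : Matrix (Fin n) (Fin n) F)
          = (g : Matrix (Fin n) (Fin n) F) * k * ((g⁻¹ : GL (Fin n) F) : Matrix (Fin n) (Fin n) F) := by
        rw [hconj]; exact he'
      have := congrArg (fun M => ((g⁻¹ : GL (Fin n) F) : Matrix (Fin n) (Fin n) F) * M *
        (g : Matrix (Fin n) (Fin n) F)) h1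
      simpa [mul_assoc] using this

theorem wrap_core [NeZero n] (r : ℕ) (hr : finrank F E = r) (hrp : r.Prime) (hlt : r < n) :
    IsCoatom (subalgebraNormalizer ρ.range) ∧
      IsMaximalIn (specialLinear (Fin n) F)
        (subalgebraNormalizer ρ.range ⊓ specialLinear (Fin n) F) := by
  letI := modE ρ
  haveI := tower ρ
  have hr2 : 2 ≤ r := hrp.two_le
  haveI : Nontrivial (Fin n) := Fin.nontrivial_iff_two_le.2 (by omega)
  haveI : FiniteDimensional E (Fin n → F) := inferInstance
  have hm : 2 ≤ finrank E (Fin n → F) := by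
    have h1 := Module.finrank_mul_finrank F E (Fin n → F)
    rw [hr, Module.finrank_fin_fun] at h1
    by_contra hcon
    have : finrank E (Fin n → F) = 0 ∨ finrank E (Fin n → F) = 1 := by omega
    rcases this with h | h <;> rw [h] at h1 <;> omega
  -- KEY
  have key : ∀ M : Subgroup (GL (Fin n) F),
      subalgebraNormalizer ρ.range ⊓ specialLinear (Fin n) F ≤ M →
      ∀ g0 ∈ M, g0 ∉ subalgebraNormalizer ρ.range → specialLinear (Fin n) F ≤ M := by
    intro M hM g0 hg0 hg0N k hk
    have hH : HasH E (M.map (glEquiv (Fin n) F).toMonoidHom) := by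
      intro e he hdet
      refine ⟨(glEquiv _ F).symm e, hM (Subgroup.mem_inf.2 ⟨?_, ?_⟩), MulEquiv.apply_symm_apply _ _⟩
      · rw [mem_normalizer_iff, MulEquiv.apply_symm_apply]; exact he
      · rw [symm_mem_specialLinear_iff, ← LinearEquiv.coe_det, hdet]; rfl
    have hall := main (K := E) (by rw [hr]; exact hrp) hm hH (g := glEquiv _ F g0) ⟨g0, hg0, rfl⟩
      (fun h => hg0N ((mem_normalizer_iff ρ g0).2 h))
    obtain ⟨k', hk', hkk⟩ := mem_of_det_eq_one _ hall k ((mem_specialLinear_iff k).1 hk)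
    have : k' = k := (glEquiv _ F).injective hkk
    exact this ▸ hk'
  -- a non-scalar element
  obtain ⟨x, hx, hxs⟩ : ∃ x ∈ ρ.range, ∀ c : F, x ≠ c • 1 := by
    by_contra hcon
    push Not at hcon
    have h1 : (⊥ : Subalgebra F E) = ⊤ := by
      rw [eq_comm, eq_bot_iff]
      intro e _
      obtain ⟨c, hc⟩ := hcon (ρ e) ⟨e, rfl⟩
      rw [Algebra.mem_bot]
      refine ⟨c, rho_inj ρ ?_⟩
      rw [hc, AlgHom.commutes, Algebra.algebraMap_eq_smul_one]
    rw [Subalgebra.bot_eq_top_iff_finrank_eq_one] at h1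
    omega
  obtain ⟨h3, h3sl, h3not⟩ := exists_h3 ρ (by omega) ρ.range le_rfl x hx hxs
  constructor
  · refine ⟨fun h => h3not (h ▸ Subgroup.mem_top _), fun M hNM => ?_⟩
    obtain ⟨g0, hg0, hg0N⟩ := SetLike.exists_of_lt hNM
    have hSL := key M (inf_le_left.trans hNM.le) g0 hg0 hg0N
    rw [eq_top_iff]
    intro g _
    obtain ⟨α, hα⟩ := FiniteField.norm_surjective F E ((g : Matrix (Fin n) (Fin n) F).det)
    have hdet0 : (g : Matrix (Fin n) (Fin n) F).det ≠ 0 := by
      have := (Matrix.isUnit_iff_isUnit_det _).1 g.isUnit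
      exact this.ne_zero
    have hα0 : α ≠ 0 := by
      rintro rfl
      rw [Algebra.norm_zero] at hα
      exact hdet0 hα.symm
    obtain ⟨t, ht0⟩ : ∃ t : Fin n → F, t ≠ 0 := ⟨Pi.single 0 1, by simp⟩
    obtain ⟨η, hη⟩ : ∃ η : Dual E (Fin n → F), η t = 1 := by
      have h1 : t ∉ (⊥ : Submodule E (Fin n → F)) := by simpa using ht0
      obtain ⟨φ, hφ1, -⟩ := Submodule.exists_le_ker_of_notMem h1
      exact ⟨(φ t)⁻¹ • φ, by simp [hφ1]⟩
    have hu : (1 + η ((α - 1) • t)) = α := by simp [hη]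
    have hunit : IsUnit (1 + η ((α - 1) • t)) := by rw [hu]; exact hα0.isUnit
    set h' : GL (Fin n) F := (glEquiv _ F).symm (kd F hunit) with hh'
    have hh'N : h' ∈ subalgebraNormalizer ρ.range := by
      rw [mem_normalizer_iff, hh', MulEquiv.apply_symm_apply]
      exact isSemi_restrictScalars _
    have hh'det : (h' : Matrix (Fin n) (Fin n) F).det = (g : Matrix (Fin n) (Fin n) F).det := by
      rw [← glEquiv_det, hh', MulEquiv.apply_symm_apply, ← LinearEquiv.coe_det]
      unfold kd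
      rw [det_restrictScalars_equiv, LinearEquiv.coe_det, ← hα]
      simp [hη]
    have h4 : g * h'⁻¹ ∈ specialLinear (Fin n) F := by
      rw [mem_specialLinear_iff, Units.val_mul, Matrix.det_mul, ← hh'det, ← Matrix.det_mul,
        ← Units.val_mul, mul_inv_cancel]
      simp
    have := M.mul_mem (hSL h4) (hNM.le hh'N)
    simpa using this
  · refine isMaximalIn_of_core _ _ inf_le_right ⟨h3, h3sl, fun h => h3not h.1⟩ ?_
    intro M hHM hMK g0 hg0 hg0H
    exact key M hHM g0 hg0 (fun h => hg0H ⟨h, hMK hg0⟩)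

end core

theorem wrap {F : Type*} [Field F] [Fintype F] (n r : ℕ) (hr : r.Prime) (hrn : r ∣ n) (hlt : r < n)
    (K : Subalgebra F (Matrix (Fin n) (Fin n) F)) (hK : Cfsg.Geo.IsFieldSubalgebra r K) :
    IsCoatom (Cfsg.Geo.subalgebraNormalizer K) ∧
      Cfsg.Geo.IsMaximalIn (Cfsg.Geo.specialLinear (Fin n) F)
        (Cfsg.Geo.subalgebraNormalizer K ⊓ Cfsg.Geo.specialLinear (Fin n) F) := by
  have : NeZero n := ⟨by omega⟩
  letI : Field K := (isFieldK K hK).toField
  have := wrap_core (E := K) K.val r hK.finrank_eq hr hlt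
  rwa [Subalgebra.range_val] at this

end Cfsg.Agent.Lib.Helper94.Ext
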